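import Cfsg.Agent.H48.Suzuki.Aniso
import Cfsg.Agent.H49.PerfectAniso
import Cfsg.Agent.H29.TwoTransfer
import Cfsg.Agent.S0205
import Mathlib

/-!
Perfect groups of isometries of an anisotropic quadratic map act trivially on an irreducible space
of characteristic two.
-/

set_option autoImplicit false

namespace Cfsg.Agent.H79.OutSolvable

open scoped Pointwise

/-- A finite elementary abelian 2-group has as many characters as elements. -/
theorem card_dual_two {W : Type*} [AddCommGroup W] [Finite W] (hW : ∀ w : W, w + w = 0) :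
    Nat.card (W →+ ZMod 2) = Nat.card W := by
  letI : Module (ZMod 2) W := AddCommGroup.zmodModule fun w => by rw [two_smul]; exact hW w
  have e : (W →+ ZMod 2) ≃ Module.Dual (ZMod 2) W :=
    { toFun := fun f => f.toZModLinearMap 2
      invFun := fun l => l.toAddMonoidHom
      left_inv := fun f => rfl
      right_inv := fun l => rfl }
  rw [Nat.card_congr e, Module.natCard_eq_pow_finrank (K := ZMod 2) (V := Module.Dual (ZMod 2) W),
    Module.natCard_eq_pow_finrank (K := ZMod 2) (V := W), Subspace.dual_finrank_eq]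

/-- Characters separate the points of an elementary abelian 2-group. -/
theorem eq_zero_of_dual_two {W : Type*} [AddCommGroup W] (hW : ∀ w : W, w + w = 0) {w : W}
    (h : ∀ l : W →+ ZMod 2, l w = 0) : w = 0 := by
  letI : Module (ZMod 2) W := AddCommGroup.zmodModule fun w => by rw [two_smul]; exact hW w
  exact (Module.forall_dual_apply_eq_zero_iff (ZMod 2) w).1 fun l => h l.toAddMonoidHom

theorem zmod_two_eq_of_add : ∀ p q : ZMod 2, p + q = 0 → p = q := by decide

/-- A finite group with a Sylow 2-subgroup of order at most two is solvable. -/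
theorem isSolvable_of_sylow_two_le {U : Type*} [Group U] [Finite U] (P : Sylow 2 U)
    (hP : Nat.card (P : Subgroup U) ≤ 2) : Group.IsSolvable U := by
  have : Fact (Nat.Prime 2) := ⟨Nat.prime_two⟩
  have hc : IsCyclic (P : Subgroup U) := by
    rcases Nat.lt_or_eq_of_le hP with h | h
    · have h1 : Nat.card (P : Subgroup U) = 1 := by
        have := Nat.card_pos (α := (P : Subgroup U)); omega
      have : Subsingleton (P : Subgroup U) := (Nat.card_eq_one_iff_unique.1 h1).1
      exact isCyclic_of_subsingleton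
    · exact isCyclic_of_prime_card h
  obtain ⟨N, hN, hodd, k, hk⟩ := H29.exists_normal_two_complement_of_cyclic P hc
  have : Group.IsSolvable N := Cfsg.Agent.S0205.result hodd
  have : IsPGroup 2 (U ⧸ N) := IsPGroup.of_card (by rw [← Subgroup.index_eq_card]; exact hk)
  have : Group.IsNilpotent (U ⧸ N) := this.isNilpotent
  exact Group.isSolvable_of_ker_le_range N.subtype (QuotientGroup.mk' N)
    (by rw [QuotientGroup.ker_mk', Subgroup.range_subtype])

/-- A perfect group of isometries of an anisotropic quadratic map of elementary abelian 2-groups,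
acting irreducibly and with values spanning the target, acts trivially. -/
theorem aniso_irreducible_trivial_aux {V W E : Type*} [AddCommGroup V] [Finite V] [AddCommGroup W]
    [Finite W] [Group E] (hperf : commutator E = ⊤) (hV : ∀ v : V, v + v = 0)
    (hW : ∀ w : W, w + w = 0) (Q : V → W) (B : V → V → W)
    (hB : ∀ u v w, B (u + v) w = B u w + B v w) (hQ : ∀ u v, Q (u + v) = Q u + Q v + B u v)
    (hani : ∀ v, Q v = 0 ↔ v = 0) (hspan : AddSubgroup.closure (Set.range Q) = ⊤)
    (ρ : E →* AddMonoid.End V) (hρ : ∀ e v, Q (ρ e v) = Q v)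
    (hirr : ∀ H : AddSubgroup V, (∀ e, ∀ v ∈ H, ρ e v ∈ H) → H = ⊥ ∨ H = ⊤) (e₀ : E) :
    ρ e₀ = 1 := by
  classical
  have : Fact (Nat.Prime 2) := ⟨Nat.prime_two⟩
  by_contra hne₀
  have hBsymm : ∀ u v, B u v = B v u := by
    intro u v
    have h1 := hQ u v
    have h2 := hQ v u
    rw [add_comm v u, h1, add_comm (Q v) (Q u)] at h2
    exact add_left_cancel h2
  have hBr : ∀ u v w, B u (v + w) = B u v + B u w := by
    intro u v w
    rw [hBsymm u (v + w), hB, hBsymm v, hBsymm w]
  have hBinv : ∀ e x y, B (ρ e x) (ρ e y) = B x y := by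
    intro e x y
    have h := hQ (ρ e x) (ρ e y)
    rw [← map_add, hρ, hρ, hρ, hQ] at h
    exact (add_left_cancel h).symm
  have hBself : ∀ x, B x x = 0 := by
    intro x
    have h := hQ x x
    rw [hV, (hani 0).2 rfl, hW, zero_add] at h
    exact h.symm
  have hmul : ∀ e e' x, ρ (e * e') x = ρ e (ρ e' x) := fun e e' x => by rw [map_mul]; rfl
  have hone : ∀ x, ρ 1 x = x := fun x => by rw [map_one]; rfl
  -- the functionals and their polar forms
  have hV2 : ∀ e, ρ e ≠ 1 → 2 < Nat.card V := by
    intro e he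
    by_contra hle
    apply he
    refine AddMonoidHom.ext fun v => ?_
    show ρ e v = v
    by_cases hv : v = 0
    · rw [hv, map_zero]
    have hinj : Function.Injective (ρ e) := by
      intro x y hxy
      have h1 : ρ e⁻¹ (ρ e x) = ρ e⁻¹ (ρ e y) := by rw [hxy]
      rwa [← hmul, ← hmul, inv_mul_cancel, hone, hone] at h1
    by_contra hne
    have hne0 : ρ e v ≠ 0 := fun h => hv (hinj (h.trans (map_zero _).symm))
    have hcard : ({0, v, ρ e v} : Finset V).card = 3 := by
      rw [Finset.card_insert_of_notMem, Finset.card_insert_of_notMem, Finset.card_singleton]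
      · simpa using Ne.symm hne
      · simp only [Finset.mem_insert, Finset.mem_singleton, not_or]
        exact ⟨Ne.symm hv, Ne.symm hne0⟩
    have := Fintype.ofFinite V
    have h3 := Finset.card_le_univ ({0, v, ρ e v} : Finset V)
    rw [hcard, ← Nat.card_eq_fintype_card] at h3
    omega
  let Φ : (W →+ ZMod 2) → V →+ (V →+ ZMod 2) := fun l =>
    AddMonoidHom.mk' (fun x => AddMonoidHom.mk' (fun y => l (B x y))
      (fun y z => by rw [hBr, map_add]))
      (fun x x' => AddMonoidHom.ext fun y => by
        show l (B (x + x') y) = l (B x y) + l (B x' y)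
        rw [hB, map_add])
  have hΦ : ∀ l x y, Φ l x y = l (B x y) := fun _ _ _ => rfl
  have hlzero : ∀ l : W →+ ZMod 2, (∀ x y, l (B x y) = 0) → l = 0 := by
    intro l hl
    let f : V →+ ZMod 2 := AddMonoidHom.mk' (fun v => l (Q v)) (fun u v => by
      show l (Q (u + v)) = l (Q u) + l (Q v)
      rw [hQ, map_add, map_add, hl, add_zero])
    rcases hirr f.ker (fun e v hv => by
      rw [AddMonoidHom.mem_ker] at hv ⊢
      show l (Q (ρ e v)) = 0
      rw [hρ]; exact hv) with h | h
    · exfalso
      have h1 : Nat.card V ≤ Nat.card (ZMod 2) :=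
        Nat.card_le_card_of_injective f ((AddMonoidHom.ker_eq_bot_iff f).1 h)
      rw [Nat.card_zmod] at h1
      have := hV2 e₀ hne₀
      omega
    · have hle : AddSubgroup.closure (Set.range Q) ≤ l.ker := by
        rw [AddSubgroup.closure_le]
        rintro _ ⟨v, rfl⟩
        have hv : v ∈ f.ker := h ▸ AddSubgroup.mem_top v
        exact hv
      rw [hspan] at hle
      exact AddMonoidHom.ext fun w => hle (AddSubgroup.mem_top w)
  have hl₀ : ∃ l₀ : W →+ ZMod 2, l₀ ≠ 0 := by
    by_contra h
    push Not at h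
    have hW0 : ∀ w : W, w = 0 := fun w => eq_zero_of_dual_two hW fun l => by rw [h l]; rfl
    apply hne₀
    refine AddMonoidHom.ext fun v => ?_
    show ρ e₀ v = v
    rw [(hani v).1 (hW0 _), map_zero]
  obtain ⟨l₀, hl₀⟩ := hl₀
  have hΦinv : ∀ (l : W →+ ZMod 2) e x y, l (B (ρ e x) y) = l (B x (ρ e⁻¹ y)) := by
    intro l e x y
    conv_lhs => rw [show y = ρ e (ρ e⁻¹ y) by
      rw [← hmul, mul_inv_cancel, hone]]
    rw [hBinv]
  have hΦinj : Function.Injective (Φ l₀) := by
    rw [← AddMonoidHom.ker_eq_bot_iff]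
    refine (hirr (Φ l₀).ker (fun e x hx => ?_)).resolve_right fun h => hl₀ ?_
    · rw [AddMonoidHom.mem_ker] at hx ⊢
      ext y
      rw [hΦ, hΦinv, ← hΦ, hx]
      rfl
    · refine hlzero l₀ fun x y => ?_
      have hx : x ∈ (Φ l₀).ker := h ▸ AddSubgroup.mem_top x
      rw [← hΦ, AddMonoidHom.mem_ker.1 hx]
      rfl
  have : Finite (W →+ ZMod 2) := Finite.of_injective _ DFunLike.coe_injective
  have : Finite (V →+ ZMod 2) := Finite.of_injective _ DFunLike.coe_injective
  have hΦbij : Function.Bijective (Φ l₀) :=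
    (Nat.bijective_iff_injective_and_card _).2 ⟨hΦinj, (card_dual_two hV).symm⟩
  let ee : V ≃+ (V →+ ZMod 2) := AddEquiv.ofBijective (Φ l₀) hΦbij
  -- the commutant
  let C : Subring (AddMonoid.End V) := Subring.centralizer (Set.range ρ)
  have : Finite (AddMonoid.End V) :=
    Finite.of_injective (fun f : AddMonoid.End V => (f : V → V)) DFunLike.coe_injective
  have hCcomm : ∀ (c : C) e x, (c : AddMonoid.End V) (ρ e x) = ρ e ((c : AddMonoid.End V) x) := by
    intro c e x
    have := Subring.mem_centralizer_iff.1 c.2 _ ⟨e, rfl⟩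
    exact (DFunLike.congr_fun this x).symm
  have hCzero : ∀ (c : C) x, (c : AddMonoid.End V) x = 0 → c = 0 ∨ x = 0 := by
    intro c x hx
    let K : AddSubgroup V := (c : AddMonoid.End V).ker
    rcases hirr K (fun e v hv => by
      show (c : AddMonoid.End V) (ρ e v) = 0
      rw [hCcomm, show (c : AddMonoid.End V) v = 0 from hv, map_zero]) with h | h
    · right
      have : x ∈ K := hx
      rwa [h, AddSubgroup.mem_bot] at this
    · left
      refine Subtype.ext (AddMonoidHom.ext fun v => ?_)
      have hv : v ∈ K := h ▸ AddSubgroup.mem_top v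
      exact hv
  have : Nontrivial V := by
    have := hV2 e₀ hne₀
    exact Finite.one_lt_card_iff_nontrivial.1 (by omega)
  have : Nontrivial C := by
    obtain ⟨v, hv⟩ := exists_ne (0 : V)
    refine ⟨1, 0, fun h => hv ?_⟩
    exact DFunLike.congr_fun (congrArg Subtype.val h) v
  have : NoZeroDivisors C := ⟨fun {a b} hab => by
    by_contra h
    rw [not_or] at h
    obtain ⟨v, hv⟩ := exists_ne (0 : V)
    have h0 : (a : AddMonoid.End V) ((b : AddMonoid.End V) v) = 0 :=
      DFunLike.congr_fun (congrArg Subtype.val hab) v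
    exact hv ((hCzero b v ((hCzero a _ h0).resolve_left h.1)).resolve_left h.2)⟩
  have : IsDomain C := NoZeroDivisors.to_isDomain C
  have hF : IsField C := Finite.isDomain_to_isField C
  have hC2 : ∀ c : C, c + c = 0 := fun c => Subtype.ext (AddMonoidHom.ext fun v => hV _)
  have hsqinj : Function.Injective (fun c : C => c * c) := by
    intro x y hxy
    have h : (x + y) * (x + y) = 0 := by
      rw [mul_add, add_mul, add_mul, hF.mul_comm y x, show x * x = y * y from hxy]
      rw [add_add_add_comm, add_comm (x * y) (y * y), ← add_assoc]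
      calc y * y + x * y + y * y + x * y = (y * y + y * y) + (x * y + x * y) := by abel
        _ = 0 := by rw [hC2, hC2, add_zero]
    have h1 := mul_self_eq_zero.1 h
    calc x = x + (y + y) := by rw [hC2, add_zero]
      _ = (x + y) + y := by abel
      _ = y := by rw [h1, zero_add]
  have hsqsurj := Finite.surjective_of_injective hsqinj
  -- the map from functionals to the commutant
  let φ : (W →+ ZMod 2) → C := fun l => ⟨ee.symm.toAddMonoidHom.comp (Φ l), by
    refine Subring.mem_centralizer_iff.2 ?_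
    rintro _ ⟨e, rfl⟩
    refine AddMonoidHom.ext fun x => ee.injective ?_
    refine AddMonoidHom.ext fun y => ?_
    show Φ l₀ (ρ e (ee.symm (Φ l x))) y = ee (ee.symm (Φ l (ρ e x))) y
    rw [AddEquiv.apply_symm_apply, hΦ, hΦ, hΦinv l e, hΦinv l₀ e, ← hΦ l₀, ← hΦ l]
    exact DFunLike.congr_fun (ee.apply_symm_apply (Φ l x)) _⟩
  have hφ : ∀ l x y, l₀ (B ((φ l : AddMonoid.End V) x) y) = l (B x y) := by
    intro l x y
    exact DFunLike.congr_fun (ee.apply_symm_apply (Φ l x)) y
  have hφinj : Function.Injective φ := by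
    intro l l' h
    rw [← sub_eq_zero]
    refine hlzero _ fun x y => ?_
    rw [AddMonoidHom.sub_apply, ← hφ l, ← hφ l', h, sub_self]
  have hWC : Nat.card W ≤ Nat.card C := card_dual_two hW ▸ Nat.card_le_card_of_injective φ hφinj
  -- a vector fixed by a Sylow 2-subgroup of the image
  let U : Subgroup (AddMonoid.End V)ˣ := (ρ.toHomUnits).range
  have hUe : ∀ u : U, ∃ e, ∀ x, ((u : (AddMonoid.End V)ˣ) : AddMonoid.End V) x = ρ e x := by
    rintro ⟨_, e, rfl⟩
    exact ⟨e, fun x => rfl⟩
  have hns : ¬ Group.IsSolvable U := by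
    intro hsol
    exact hne₀ (congrArg Units.val (H49.Aniso.perfect_hom_eq_one hperf ρ.toHomUnits hsol e₀))
  obtain ⟨P⟩ := (inferInstance : Nonempty (Sylow 2 U))
  letI : MulAction (P : Subgroup U) V :=
    { smul := fun u x => (((u : U) : (AddMonoid.End V)ˣ) : AddMonoid.End V) x
      one_smul := fun x => rfl
      mul_smul := fun u v x => rfl }
  have h2V : 2 ∣ Nat.card V := by
    obtain ⟨v, hv⟩ := exists_ne (0 : V)
    have h : addOrderOf v = 2 := addOrderOf_eq_prime (by rw [two_nsmul]; exact hV v) hv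
    exact h ▸ addOrderOf_dvd_natCard v
  have hfix0 : (0 : V) ∈ MulAction.fixedPoints (P : Subgroup U) V := fun u => map_zero _
  obtain ⟨a, ha, hane⟩ := P.2.exists_fixed_point_of_prime_dvd_card_of_fixed_point V h2V hfix0
  have ha0 : a ≠ 0 := Ne.symm hane
  by_cases hsurj : ∀ v : V, ∃ c : C, (c : AddMonoid.End V) a = v
  · -- one-dimensional
    refine hne₀ ?_
    have hcomm : ∀ e e' v, ρ e (ρ e' v) = ρ e' (ρ e v) := by
      intro e e' v
      obtain ⟨c, rfl⟩ := hsurj v
      obtain ⟨d, hd⟩ := hsurj (ρ e a)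
      obtain ⟨d', hd'⟩ := hsurj (ρ e' a)
      have hdd : (d' : AddMonoid.End V) ((d : AddMonoid.End V) a) =
          (d : AddMonoid.End V) ((d' : AddMonoid.End V) a) :=
        DFunLike.congr_fun (congrArg Subtype.val (hF.mul_comm d' d)) a
      rw [← hCcomm, ← hCcomm, ← hCcomm, ← hCcomm, ← hd', ← hCcomm, ← hd, ← hCcomm, ← hd', hdd]
    have hUc : IsMulCommutative U := ⟨⟨fun u v => by
      obtain ⟨e, he⟩ := hUe u
      obtain ⟨e', he'⟩ := hUe v
      refine Subtype.ext (Units.ext (AddMonoidHom.ext fun x => ?_))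
      show ((u : (AddMonoid.End V)ˣ) : AddMonoid.End V)
          (((v : (AddMonoid.End V)ˣ) : AddMonoid.End V) x) = _
      rw [he, he', hcomm, ← he', ← he]
      rfl⟩⟩
    exact absurd (Group.isSolvable_of_comm fun u v => hUc.1.1 u v) hns
  push Not at hsurj
  obtain ⟨v₀, hv₀⟩ := hsurj
  let m : C × C → V := fun p => (p.1 : AddMonoid.End V) v₀ + (p.2 : AddMonoid.End V) a
  have hindep : ∀ s t : C, (s : AddMonoid.End V) v₀ + (t : AddMonoid.End V) a = 0 →
      s = 0 ∧ t = 0 := by
    intro s t h
    have hs : s = 0 := by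
      by_contra hs
      obtain ⟨r, hr⟩ := hF.mul_inv_cancel hs
      rw [hF.mul_comm] at hr
      have h1 : (r : AddMonoid.End V) ((s : AddMonoid.End V) v₀) = v₀ :=
        DFunLike.congr_fun (congrArg Subtype.val hr) v₀
      refine hv₀ (-(r * t)) ?_
      show -((r : AddMonoid.End V) ((t : AddMonoid.End V) a)) = v₀
      rw [← h1, eq_neg_of_add_eq_zero_left h, map_neg]
    subst hs
    refine ⟨rfl, (hCzero t a ?_).resolve_right ha0⟩
    simpa using h
  have hm : Function.Injective m := by
    rintro ⟨s, t⟩ ⟨s', t'⟩ h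
    have := hindep (s - s') (t - t') (by
      show ((s : AddMonoid.End V) v₀ - (s' : AddMonoid.End V) v₀) +
        ((t : AddMonoid.End V) a - (t' : AddMonoid.End V) a) = 0
      rw [sub_add_sub_comm, sub_eq_zero]
      exact h)
    exact Prod.ext (sub_eq_zero.1 this.1) (sub_eq_zero.1 this.2)
  have hle1 : Nat.card C ^ 2 ≤ Nat.card V := by
    rw [sq, ← Nat.card_prod]
    exact Nat.card_le_card_of_injective m hm
  have hle2 := H48.Suzuki.anisotropic_bound hV hW Q B hB hQ hani
  have hcW : Nat.card W = Nat.card C := by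
    have := Nat.pow_le_pow_iff_left (n := 2) (by norm_num) |>.1 (hle1.trans hle2)
    omega
  have hmsurj : Function.Surjective m := ((Nat.bijective_iff_injective_and_card m).2 ⟨hm, by
    rw [Nat.card_prod, ← sq]
    exact le_antisymm hle1 (hcW ▸ hle2)⟩).2
  have hφsurj : Function.Surjective φ :=
    ((Nat.bijective_iff_injective_and_card φ).2 ⟨hφinj, by rw [card_dual_two hW, hcW]⟩).2
  -- the commutant is self-adjoint
  have halt : ∀ (c : C) x, l₀ (B ((c : AddMonoid.End V) x) x) = 0 := by
    intro c x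
    obtain ⟨l, rfl⟩ := hφsurj c
    rw [hφ, hBself, map_zero]
  have hadj₀ : ∀ (c : C) x y,
      l₀ (B ((c : AddMonoid.End V) x) y) = l₀ (B x ((c : AddMonoid.End V) y)) := by
    intro c x y
    have h := halt c (x + y)
    rw [map_add, hB, hBr, hBr, map_add, map_add, map_add, halt, halt, zero_add, add_zero] at h
    rw [hBsymm x]
    exact zmod_two_eq_of_add _ _ h
  have hadj : ∀ (c : C) x y, B ((c : AddMonoid.End V) x) y = B x ((c : AddMonoid.End V) y) := by
    intro c x y
    rw [← sub_eq_zero]
    refine eq_zero_of_dual_two hW fun l => ?_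
    rw [map_sub, ← hφ l, ← hφ l, ← hadj₀ c, sub_eq_zero]
    exact congrArg (fun z => l₀ (B z y))
      (DFunLike.congr_fun (congrArg Subtype.val (hF.mul_comm (φ l) c)) x)
  have hBaa : ∀ t : C, B a ((t : AddMonoid.End V) a) = 0 := fun t => eq_zero_of_dual_two hW fun l => by
    rw [← hφ l, ← hadj₀ t]
    exact halt (t * φ l) a
  -- the coordinates of a 2-element
  have hshape : ∀ u : (P : Subgroup U), ∃ c : C,
      (((u : U) : (AddMonoid.End V)ˣ) : AddMonoid.End V) v₀ = v₀ + (c : AddMonoid.End V) a := by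
    intro u
    obtain ⟨e, he⟩ := hUe (u : U)
    obtain ⟨⟨d, c⟩, hdc⟩ := hmsurj (ρ e v₀)
    have hea : ρ e a = a := (he a).symm.trans (ha u)
    have hpow : ∀ k : ℕ, ∃ c' : C,
        ρ (e ^ k) v₀ = ((d ^ k : C) : AddMonoid.End V) v₀ + (c' : AddMonoid.End V) a := by
      intro k
      induction k with
      | zero => exact ⟨0, by simp⟩
      | succ k ih =>
        obtain ⟨c', hc'⟩ := ih
        refine ⟨d ^ k * c + c', ?_⟩
        rw [pow_succ' e, hmul, hc', map_add, ← hCcomm, ← hCcomm, hea, ← hdc]
        rw [pow_succ d]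
        show _ = ((d ^ k : C) : AddMonoid.End V) ((d : AddMonoid.End V) v₀) +
          (((d ^ k : C) : AddMonoid.End V) ((c : AddMonoid.End V) a) + (c' : AddMonoid.End V) a)
        simp only [m, map_add, add_assoc]
    obtain ⟨j, hj⟩ := P.2 u
    have hej : ∀ x, ρ (e ^ 2 ^ j) x = x := by
      intro x
      have h1 : ∀ k : ℕ, ((((u ^ k : (P : Subgroup U)) : U) : (AddMonoid.End V)ˣ) :
          AddMonoid.End V) x = ρ (e ^ k) x := by
        intro k
        induction k generalizing x with
        | zero => simp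
        | succ k ih =>
          rw [pow_succ u, pow_succ e, hmul]
          show (((u ^ k : (P : Subgroup U)) : U) : (AddMonoid.End V)ˣ).val
            ((((u : U) : (AddMonoid.End V)ˣ) : AddMonoid.End V) x) = _
          rw [he, ih]
      rw [← h1, hj]
      rfl
    obtain ⟨c', hc'⟩ := hpow (2 ^ j)
    rw [hej] at hc'
    have hd1 : d ^ 2 ^ j = 1 := by
      have := hindep (d ^ 2 ^ j - 1) c' (by
        show ((d ^ 2 ^ j : C) : AddMonoid.End V) v₀ - v₀ + (c' : AddMonoid.End V) a = 0
        rw [sub_add_eq_add_sub, ← hc', sub_self])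
      exact sub_eq_zero.1 this.1
    have hdesc : ∀ i : ℕ, d ^ 2 ^ i = 1 → d = 1 := by
      intro i
      induction i with
      | zero => simp
      | succ i ih =>
        intro h
        refine ih (hsqinj ?_)
        show d ^ 2 ^ i * d ^ 2 ^ i = 1 * 1
        rw [← pow_add, ← two_mul, ← pow_succ', h, one_mul]
    refine ⟨c, ?_⟩
    rw [he, ← hdc, hdesc j hd1]
    rfl
  choose cf hcf using hshape
  have hcinj : Function.Injective cf := by
    intro u u' h
    refine Subtype.ext (Subtype.ext (Units.ext (DFunLike.ext _ _ fun x => ?_)))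
    obtain ⟨e, he⟩ := hUe (u : U)
    obtain ⟨e', he'⟩ := hUe (u' : U)
    obtain ⟨⟨s, t⟩, rfl⟩ := hmsurj x
    have hea : ρ e a = a := (he a).symm.trans (ha u)
    have hea' : ρ e' a = a := (he' a).symm.trans (ha u')
    show (((u : U) : (AddMonoid.End V)ˣ) : AddMonoid.End V) (m (s, t)) =
      (((u' : U) : (AddMonoid.End V)ˣ) : AddMonoid.End V) (m (s, t))
    rw [he, he']
    simp only [m]
    rw [map_add, map_add, ← hCcomm, ← hCcomm, ← hCcomm, ← hCcomm, hea, hea', ← he, ← he',
      hcf, hcf, h]
  have hW' : ∀ p q : W, p + q = 0 → p = q := fun p q h => by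
    calc p = p + (q + q) := by rw [hW, add_zero]
      _ = (p + q) + q := by abel
      _ = q := by rw [h, zero_add]
  have hkey : ∀ (u : (P : Subgroup U)) (s : C),
      Q (((s * cf u : C) : AddMonoid.End V) a) = B v₀ (((s * (s * cf u) : C) : AddMonoid.End V) a) := by
    intro u s
    obtain ⟨e, he⟩ := hUe (u : U)
    have h1 := hρ e ((s : AddMonoid.End V) v₀)
    rw [← hCcomm, ← he, hcf, map_add, hQ, hadj s v₀, add_assoc, add_eq_left] at h1
    exact hW' _ _ h1
  have huniq : ∀ u u' : (P : Subgroup U), cf u ≠ 0 → cf u' ≠ 0 → cf u = cf u' := by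
    intro u u' hu hu'
    obtain ⟨i, hi⟩ := hF.mul_inv_cancel hu
    obtain ⟨i', hi'⟩ := hF.mul_inv_cancel hu'
    by_contra hne
    have hii : i - i' ≠ 0 := fun h => hne (by
      rw [sub_eq_zero] at h
      calc cf u = cf u * (cf u' * i') := by rw [hi', mul_one]
        _ = cf u' * (cf u * i) := by rw [h, ← mul_assoc, hF.mul_comm (cf u), mul_assoc]
        _ = cf u' := by rw [hi, mul_one])
    obtain ⟨k, hk⟩ := hF.mul_inv_cancel hii
    have hall : ∀ y : C, B v₀ ((y : AddMonoid.End V) a) = 0 := by
      intro y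
      obtain ⟨x, hx⟩ := hsqsurj (y * k)
      have hA := hkey u (x * i)
      have hA' := hkey u' (x * i')
      rw [mul_assoc x, hF.mul_comm i, hi, mul_one] at hA
      rw [mul_assoc x, hF.mul_comm i', hi', mul_one] at hA'
      have hxy : y = x * i * x - x * i' * x := by
        calc y = y * ((i - i') * k) := by rw [hk, mul_one]
          _ = (i - i') * (y * k) := by rw [← mul_assoc, hF.mul_comm y, mul_assoc]
          _ = (i - i') * (x * x) := by rw [← hx]
          _ = x * i * x - x * i' * x := by
            rw [sub_mul, ← mul_assoc, ← mul_assoc, hF.mul_comm i x, hF.mul_comm i' x]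
      rw [hxy]
      show B v₀ (((x * i * x : C) : AddMonoid.End V) a - ((x * i' * x : C) : AddMonoid.End V) a) = 0
      rw [show B v₀ (((x * i * x : C) : AddMonoid.End V) a - ((x * i' * x : C) : AddMonoid.End V) a) =
          B v₀ (((x * i * x : C) : AddMonoid.End V) a) - B v₀ (((x * i' * x : C) : AddMonoid.End V) a)
        from (AddMonoidHom.mk' (B v₀) (hBr v₀)).map_sub _ _, ← hA, ← hA', sub_self]
    refine ha0 (hΦinj (AddMonoidHom.ext fun v => ?_))
    rw [map_zero, hΦ]
    obtain ⟨⟨s, t⟩, rfl⟩ := hmsurj v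
    show l₀ (B a ((s : AddMonoid.End V) v₀ + (t : AddMonoid.End V) a)) = 0
    rw [hBr, hBaa, add_zero, ← hadj, hBsymm, hall, map_zero]
  have hP2 : Nat.card (P : Subgroup U) ≤ 2 := by
    by_cases hex : ∃ u, cf u ≠ 0
    · obtain ⟨u₁, hu₁⟩ := hex
      let g : ↥(P : Subgroup U) → Bool := fun u => decide (cf u = 0)
      have hg : Function.Injective g := by
        intro u u' h
        apply hcinj
        by_cases h0 : cf u = 0
        · have : cf u' = 0 := by simpa [g, h0] using h.symm
          rw [h0, this]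
        · have : cf u' ≠ 0 := by simpa [g, h0] using h.symm
          exact huniq u u' h0 this
      simpa using Nat.card_le_card_of_injective g hg
    · push Not at hex
      have : Subsingleton (P : Subgroup U) := ⟨fun u u' => hcinj (by rw [hex, hex])⟩
      rw [Nat.card_of_subsingleton (1 : (P : Subgroup U))]
      omega
  exact hns (isSolvable_of_sylow_two_le P hP2)

/-- A perfect group of isometries of an anisotropic quadratic map of elementary abelian 2-groups
acting irreducibly acts trivially. -/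
theorem aniso_irreducible_trivial {V W E : Type*} [AddCommGroup V] [Finite V] [AddCommGroup W]
    [Finite W] [Group E] (hperf : commutator E = ⊤) (hV : ∀ v : V, v + v = 0)
    (hW : ∀ w : W, w + w = 0) (Q : V → W) (B : V → V → W)
    (hB : ∀ u v w, B (u + v) w = B u w + B v w) (hQ : ∀ u v, Q (u + v) = Q u + Q v + B u v)
    (hani : ∀ v, Q v = 0 ↔ v = 0)
    (ρ : E →* AddMonoid.End V) (hρ : ∀ e v, Q (ρ e v) = Q v)
    (hirr : ∀ H : AddSubgroup V, (∀ e, ∀ v ∈ H, ρ e v ∈ H) → H = ⊥ ∨ H = ⊤) (e : E) :
    ρ e = 1 := by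
  let W' := AddSubgroup.closure (Set.range Q)
  have hQm : ∀ v, Q v ∈ W' := fun v => AddSubgroup.subset_closure ⟨v, rfl⟩
  have hBm : ∀ u v, B u v ∈ W' := fun u v => by
    have h := hQ u v
    rw [show B u v = Q (u + v) - (Q u + Q v) by rw [h]; abel]
    exact sub_mem (hQm _) (add_mem (hQm _) (hQm _))
  refine aniso_irreducible_trivial_aux hperf hV (W := W') (fun w => Subtype.ext (hW _))
    (fun v => ⟨Q v, hQm v⟩) (fun u v => ⟨B u v, hBm u v⟩) (fun u v w => Subtype.ext (hB u v w))
    (fun u v => Subtype.ext (hQ u v)) (fun v => Subtype.ext_iff.trans (hani v)) ?_ ρ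
    (fun e v => Subtype.ext (hρ e v)) hirr e
  have h := AddSubgroup.closure_closure_coe_preimage (k := Set.range Q)
  rw [← h]
  congr 1
  ext w
  exact ⟨fun ⟨v, hv⟩ => ⟨v, congrArg Subtype.val hv⟩, fun ⟨v, hv⟩ => ⟨v, Subtype.ext hv⟩⟩

end Cfsg.Agent.H79.OutSolvable
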