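import Cfsg.Agent.H79.OutSolvable.Aniso
import Cfsg.Agent.H24.PGroupBasic
import Cfsg.Agent.H21.NonSolvable

/-!
A group of automorphisms of a finite 2-group fixing every involution is solvable.
-/

set_option autoImplicit false

namespace Cfsg.Agent.H79.OutSolvable

variable {E : Type*} [Group E]

/-- A crossed homomorphism into commuting fixed points of a perfect group is trivial. -/
theorem crossed_trivial (hperf : commutator E = ⊤) {T : Type*} [Group T] (δ : E →* MulAut T)
    (C : Subgroup T) (hC : ∀ e, ∀ c ∈ C, δ e c = c) (hcomm : ∀ c ∈ C, ∀ d ∈ C, c * d = d * c)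
    (x : T) (hx : ∀ e, x⁻¹ * δ e x ∈ C) (e : E) : δ e x = x := by
  let f : E →* C :=
    { toFun := fun e => ⟨x⁻¹ * δ e x, hx e⟩
      map_one' := Subtype.ext (by simp)
      map_mul' := fun e e' => Subtype.ext (by
        show x⁻¹ * δ (e * e') x = x⁻¹ * δ e x * (x⁻¹ * δ e' x)
        conv_rhs => rw [← hC e _ (hx e'), map_mul, map_inv]
        simp [map_mul, mul_assoc]) }
  have hsol : Group.IsSolvable f.range := Group.isSolvable_of_comm fun a b =>
    Subtype.ext (Subtype.ext (hcomm _ a.1.2 _ b.1.2))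
  have h := congrArg Subtype.val (H49.Aniso.perfect_hom_eq_one hperf f hsol e)
  exact (inv_mul_eq_one.1 h).symm

/-- A perfect group acting on a finite 2-group and fixing its involutions acts trivially. -/
theorem perfect_fix_involutions {T : Type*} [Group T] [Finite T] (hperf : commutator E = ⊤)
    (hT : IsPGroup 2 T) (δ : E →* MulAut T) (hfix : ∀ e x, x ^ 2 = 1 → δ e x = x) :
    ∀ e x, δ e x = x := by
  classical
  suffices H : ∀ (k : ℕ) (U : Subgroup T), Nat.card U = k →
      (∀ e, ∀ x ∈ U, δ e x ∈ U) → ∀ e, ∀ x ∈ U, δ e x = x from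
    fun e x => H _ ⊤ rfl (fun _ _ _ => Subgroup.mem_top _) e x (Subgroup.mem_top x)
  intro k
  induction k using Nat.strong_induction_on with
  | _ k ih =>
  intro U hk hU
  subst hk
  -- restrict to `U`
  let ε : E →* MulAut U :=
    { toFun := fun e =>
        { toFun := fun x => ⟨δ e x, hU e x x.2⟩
          invFun := fun x => ⟨δ e⁻¹ x, hU e⁻¹ x x.2⟩
          left_inv := fun x => Subtype.ext (by
            show δ e⁻¹ (δ e (x : T)) = x
            rw [← MulAut.mul_apply, ← map_mul, inv_mul_cancel, map_one]; rfl)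
          right_inv := fun x => Subtype.ext (by
            show δ e (δ e⁻¹ (x : T)) = x
            rw [← MulAut.mul_apply, ← map_mul, mul_inv_cancel, map_one]; rfl)
          map_mul' := fun x y => Subtype.ext (map_mul (δ e) (x : T) (y : T)) }
      map_one' := MulEquiv.ext fun x => Subtype.ext (by simp)
      map_mul' := fun e e' => MulEquiv.ext fun x => Subtype.ext (by simp [map_mul]) }
  suffices h : ∀ e x, ε e x = x from fun e x hx => congrArg Subtype.val (h e ⟨x, hx⟩)
  have : Fact (Nat.Prime 2) := ⟨Nat.prime_two⟩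
  have hP : IsPGroup 2 U := hT.to_subgroup U
  have hεfix : ∀ e x, x ^ 2 = 1 → ε e x = x := fun e x hx =>
    Subtype.ext (hfix e x (by rw [← Subgroup.coe_pow, hx]; rfl))
  have ihU : ∀ H : Subgroup U, H ≠ ⊤ → (∀ e, ∀ x ∈ H, ε e x ∈ H) → ∀ e, ∀ x ∈ H, ε e x = x := by
    intro H hH hinv e x hx
    have hlt : Nat.card (H.map U.subtype) < Nat.card U := by
      rw [Subgroup.card_map_of_injective U.subtype_injective]
      exact lt_of_le_of_ne H.card_le_card_group fun e => hH (Subgroup.eq_top_of_card_eq _ e)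
    refine Subtype.ext (ih _ hlt (H.map U.subtype) rfl ?_ e x ⟨x, hx, rfl⟩)
    rintro e _ ⟨y, hy, rfl⟩
    exact ⟨ε e y, hinv e y hy, rfl⟩
  let C : Subgroup U :=
    { carrier := {x | ∀ e, ε e x = x}
      one_mem' := fun e => map_one _
      mul_mem' := fun {a b} ha hb e => by rw [map_mul, ha, hb]
      inv_mem' := fun {a} ha e => by rw [map_inv, ha] }
  by_contra hne
  push Not at hne
  obtain ⟨e₁, x₁, hx₁⟩ := hne
  have hΦ : frattini U ≤ C := by
    intro x hx e
    refine ihU (frattini U) (fun htop => ?_) (fun e y hy => ?_) e x hx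
    · have h1 : Subgroup.closure ({1} : Set U) = ⊤ := by
        refine frattini_nongenerating ?_
        rw [htop, sup_top_eq]
      have : x₁ ∈ Subgroup.closure ({1} : Set U) := h1 ▸ Subgroup.mem_top x₁
      rw [Subgroup.closure_singleton_one, Subgroup.mem_bot] at this
      exact hx₁ (by rw [this, map_one])
    · have h := (Subgroup.characteristic_iff_map_eq.mp (inferInstance : (frattini U).Characteristic))
        (ε e)
      exact h ▸ ⟨y, hy, rfl⟩
  have hcomm' : ∀ a b : U, a⁻¹ * b * a * b⁻¹ ∈ C := fun a b => hΦ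
    (H24.commutator_le_frattini hP (by
      rw [commutator_def]
      have := Subgroup.commutator_mem_commutator (Subgroup.mem_top (a⁻¹)) (Subgroup.mem_top b)
      simpa [commutatorElement_def] using this))
  have hsq : ∀ x : U, x ^ 2 ∈ C := fun x => hΦ (H24.pow_mem_frattini hP x)
  have hCn : ∀ c ∈ C, ∀ x : U, x * c * x⁻¹ ∈ C := by
    intro c hc x
    have h : x * c * x⁻¹ = (x⁻¹⁻¹ * c * x⁻¹ * c⁻¹) * c := by group
    rw [h]
    exact mul_mem (hcomm' _ _) hc
  have hinvC : ∀ (H : Subgroup U), C ≤ H → (∀ e, ∀ x ∈ H, ε e x ∈ H) → H = C ∨ H = ⊤ := by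
    intro H hle hinv
    by_cases htop : H = ⊤
    · exact Or.inr htop
    · exact Or.inl (le_antisymm (fun x hx e => ihU H htop hinv e x hx) hle)
  -- fixed points are central
  have hcen : ∀ c ∈ C, ∀ x : U, c * x = x * c := by
    let M : Subgroup U := Subgroup.centralizer (C : Set U)
    have hMinv : ∀ e, ∀ x ∈ M, ε e x ∈ M := by
      intro e x hx
      rw [Subgroup.mem_centralizer_iff] at hx ⊢
      intro c hc
      rw [← hc e, ← map_mul, hx c hc, map_mul]
    by_cases hM : M = ⊤
    · intro c hc x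
      have hx : x ∈ M := hM ▸ Subgroup.mem_top x
      exact Subgroup.mem_centralizer_iff.1 hx c hc
    exfalso
    have hMC : M ≤ C := fun x hx e => ihU M hM hMinv e x hx
    refine hx₁ (crossed_trivial hperf ε M (fun e c hc => hMC hc e) (fun c hc d hd => ?_) x₁
      (fun e => ?_) e₁)
    · exact (Subgroup.mem_centralizer_iff.1 hc d (hMC hd)).symm
    · rw [Subgroup.mem_centralizer_iff]
      intro c hc
      have h := hCn c hc x₁ e
      rw [map_mul, map_mul, map_inv, hc e] at h
      calc c * (x₁⁻¹ * ε e x₁) = x₁⁻¹ * (x₁ * c * x₁⁻¹) * ε e x₁ := by group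
        _ = x₁⁻¹ * (ε e x₁ * c * (ε e x₁)⁻¹) * ε e x₁ := by rw [h]
        _ = x₁⁻¹ * ε e x₁ * c := by group
  have hnormal : C.Normal := ⟨hCn⟩
  letI : CommGroup C := { (inferInstance : Group C) with
    mul_comm := fun a b => Subtype.ext (hcen a a.2 b) }
  letI : CommGroup (U ⧸ C) := { (inferInstance : Group (U ⧸ C)) with
    mul_comm := fun a b => by
      obtain ⟨a, rfl⟩ := QuotientGroup.mk'_surjective _ a
      obtain ⟨b, rfl⟩ := QuotientGroup.mk'_surjective _ b
      show ((a * b : U) : U ⧸ C) = ((b * a : U) : U ⧸ C)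
      rw [QuotientGroup.eq]
      have := hcomm' b a⁻¹
      simpa [mul_assoc] using this }
  let sqC : C →* C := powMonoidHom 2
  let Qf : U → C ⧸ sqC.range := fun x => QuotientGroup.mk ⟨x ^ 2, hsq x⟩
  have hQwd : ∀ x y : U, x⁻¹ * y ∈ C → Qf x = Qf y := by
    intro x y h
    show QuotientGroup.mk _ = QuotientGroup.mk _
    rw [QuotientGroup.eq]
    refine ⟨⟨x⁻¹ * y, h⟩, Subtype.ext ?_⟩
    show (x⁻¹ * y) ^ 2 = (x ^ 2)⁻¹ * y ^ 2
    have h1 := hcen _ h x⁻¹
    calc (x⁻¹ * y) ^ 2 = ((x⁻¹ * y) * x⁻¹) * y := by rw [sq]; group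
      _ = (x⁻¹ * (x⁻¹ * y)) * y := by rw [h1]
      _ = (x ^ 2)⁻¹ * y ^ 2 := by rw [sq, sq]; group
  let Qb : U ⧸ C → C ⧸ sqC.range := fun q => Quotient.liftOn' q Qf fun x y h =>
    hQwd x y (QuotientGroup.leftRel_apply.1 h)
  have hQb : ∀ x : U, Qb (x : U ⧸ C) = Qf x := fun _ => rfl
  let κ : U → U → C := fun x y => ⟨x⁻¹ * y * x * y⁻¹, hcomm' x y⟩
  have hQmul : ∀ x y : U, Qf (x * y) =
      Qf x * Qf y * QuotientGroup.mk (κ x y) := by
    intro x y
    show QuotientGroup.mk _ = QuotientGroup.mk (_ * _ * _)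
    congr 1
    refine Subtype.ext ?_
    show (x * y) ^ 2 = x ^ 2 * y ^ 2 * (x⁻¹ * y * x * y⁻¹)
    rw [mul_assoc (x ^ 2), ← hcen _ (hcomm' x y), ← mul_assoc]
    rw [sq, sq, sq]
    group
  have hκ : ∀ x₁ x₂ y : U, κ (x₁ * x₂) y = κ x₁ y * κ x₂ y := by
    intro a b y
    refine Subtype.ext ?_
    show (a * b)⁻¹ * y * (a * b) * y⁻¹ = (a⁻¹ * y * a * y⁻¹) * (b⁻¹ * y * b * y⁻¹)
    calc (a * b)⁻¹ * y * (a * b) * y⁻¹ = b⁻¹ * (a⁻¹ * y * a * y⁻¹) * y * b * y⁻¹ := by group
      _ = (a⁻¹ * y * a * y⁻¹) * b⁻¹ * y * b * y⁻¹ := by rw [hcen _ (hcomm' a y) b⁻¹]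
      _ = _ := by group
  let V := Additive (U ⧸ C)
  let W := Additive (C ⧸ sqC.range)
  let Q : V → W := fun v => Additive.ofMul (Qb v.toMul)
  let B : V → V → W := fun u v => Q (u + v) - (Q u + Q v)
  have hBk : ∀ x y : U, B (Additive.ofMul (x : U ⧸ C)) (Additive.ofMul (y : U ⧸ C)) =
      Additive.ofMul (QuotientGroup.mk (κ x y) : C ⧸ sqC.range) := by
    intro x y
    show Additive.ofMul (Qb ((x * y : U) : U ⧸ C)) - (Additive.ofMul (Qb x) + Additive.ofMul (Qb y)) = _
    rw [hQb, hQb, hQb, hQmul]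
    show Additive.ofMul (Qf x) + Additive.ofMul (Qf y) + Additive.ofMul _ - _ = _
    rw [add_sub_cancel_left]
    rfl
  let ρ : E →* AddMonoid.End V :=
    { toFun := fun e => MonoidHom.toAdditive (QuotientGroup.map C C (ε e).toMonoidHom
        (fun c hc => by
          rw [Subgroup.mem_comap]
          show ε e c ∈ C
          rw [hc e]; exact hc))
      map_one' := AddMonoidHom.ext fun v => by
        obtain ⟨x, hx⟩ := QuotientGroup.mk'_surjective C v.toMul
        rw [show v = Additive.ofMul (x : U ⧸ C) from congrArg Additive.ofMul hx.symm]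
        show Additive.ofMul ((ε 1 x : U) : U ⧸ C) = Additive.ofMul (x : U ⧸ C)
        rw [map_one]; rfl
      map_mul' := fun e e' => AddMonoidHom.ext fun v => by
        obtain ⟨x, hx⟩ := QuotientGroup.mk'_surjective C v.toMul
        rw [show v = Additive.ofMul (x : U ⧸ C) from congrArg Additive.ofMul hx.symm]
        show Additive.ofMul ((ε (e * e') x : U) : U ⧸ C) = Additive.ofMul ((ε e (ε e' x) : U) : U ⧸ C)
        rw [map_mul]; rfl }
  have hρx : ∀ e (x : U), ρ e (Additive.ofMul (x : U ⧸ C)) = Additive.ofMul ((ε e x : U) : U ⧸ C) :=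
    fun _ _ => rfl
  have key : ∀ e, ρ e = 1 := by
    refine aniso_irreducible_trivial (V := V) (W := W) hperf ?_ ?_ Q B ?_ ?_ ?_ ρ ?_ ?_
    · intro v
      obtain ⟨x, hx⟩ := QuotientGroup.mk'_surjective C v.toMul
      rw [show v = Additive.ofMul (x : U ⧸ C) from congrArg Additive.ofMul hx.symm]
      show Additive.ofMul ((x * x : U) : U ⧸ C) = Additive.ofMul ((1 : U) : U ⧸ C)
      rw [← sq, (QuotientGroup.eq (s := C)).2 (show (x ^ 2)⁻¹ * 1 ∈ C by simpa using C.inv_mem (hsq x))]
    · intro w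
      obtain ⟨c, hc⟩ := QuotientGroup.mk'_surjective sqC.range w.toMul
      rw [show w = Additive.ofMul (c : C ⧸ sqC.range) from congrArg Additive.ofMul hc.symm]
      show Additive.ofMul ((c * c : C) : C ⧸ sqC.range) = 0
      rw [(QuotientGroup.eq_one_iff (c * c)).2 (MonoidHom.mem_range.2 ⟨c, by simp [sqC, sq]⟩)]
      rfl
    · intro u v w
      obtain ⟨x, hx⟩ := QuotientGroup.mk'_surjective C u.toMul
      obtain ⟨y, hy⟩ := QuotientGroup.mk'_surjective C v.toMul
      obtain ⟨z, hz⟩ := QuotientGroup.mk'_surjective C w.toMul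
      rw [show u = Additive.ofMul (x : U ⧸ C) from congrArg Additive.ofMul hx.symm,
        show v = Additive.ofMul (y : U ⧸ C) from congrArg Additive.ofMul hy.symm,
        show w = Additive.ofMul (z : U ⧸ C) from congrArg Additive.ofMul hz.symm,
        show Additive.ofMul (x : U ⧸ C) + Additive.ofMul (y : U ⧸ C) =
          Additive.ofMul ((x * y : U) : U ⧸ C) from rfl, hBk, hBk, hBk, hκ]
      rfl
    · intro u v
      show Q (u + v) = Q u + Q v + (Q (u + v) - (Q u + Q v))
      rw [add_sub_cancel]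
    · intro v
      obtain ⟨x, hx⟩ := QuotientGroup.mk'_surjective C v.toMul
      rw [show v = Additive.ofMul (x : U ⧸ C) from congrArg Additive.ofMul hx.symm]
      show Qb (x : U ⧸ C) = 1 ↔ ((x : U) : U ⧸ C) = 1
      rw [hQb, QuotientGroup.eq_one_iff]
      constructor
      · intro h
        obtain ⟨c, hc⟩ := MonoidHom.mem_range.1 h
        have hc' : (c : U) ^ 2 = x ^ 2 := congrArg Subtype.val hc
        have h1 : (x * (c : U)⁻¹) ^ 2 = 1 := by
          rw [(show Commute x (c : U)⁻¹ from (hcen _ (inv_mem c.2) x).symm).mul_pow, inv_pow, hc',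
            mul_inv_cancel]
        have h2 : x * (c : U)⁻¹ ∈ C := fun e => hεfix e _ h1
        exact (QuotientGroup.eq_one_iff x).2 (by simpa using mul_mem h2 c.2)
      · intro h
        exact MonoidHom.mem_range.2 ⟨⟨x, (QuotientGroup.eq_one_iff x).1 h⟩, rfl⟩
    · intro e v
      obtain ⟨x, hx⟩ := QuotientGroup.mk'_surjective C v.toMul
      rw [show v = Additive.ofMul (x : U ⧸ C) from congrArg Additive.ofMul hx.symm, hρx]
      show Additive.ofMul (Qf (ε e x)) = Additive.ofMul (Qf x)
      show Additive.ofMul (QuotientGroup.mk _) = Additive.ofMul (QuotientGroup.mk _)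
      congr 2
      refine Subtype.ext ?_
      show (ε e x) ^ 2 = x ^ 2
      rw [← map_pow, hsq x e]
    · intro H hH
      let K : Subgroup U :=
        { carrier := {x | Additive.ofMul (x : U ⧸ C) ∈ H}
          one_mem' := H.zero_mem
          mul_mem' := fun {a b} ha hb => H.add_mem ha hb
          inv_mem' := fun {a} ha => H.neg_mem ha }
      have hCK : C ≤ K := fun c hc => by
        show Additive.ofMul (c : U ⧸ C) ∈ H
        rw [(QuotientGroup.eq_one_iff c).2 hc]
        exact H.zero_mem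
      rcases hinvC K hCK (fun e x hx => by
        show Additive.ofMul ((ε e x : U) : U ⧸ C) ∈ H
        rw [← hρx]
        exact hH e _ hx) with h | h
      · left
        rw [eq_bot_iff]
        intro v hv
        obtain ⟨x, hx⟩ := QuotientGroup.mk'_surjective C v.toMul
        have hxK : x ∈ K := by
          show Additive.ofMul (x : U ⧸ C) ∈ H
          rw [show Additive.ofMul (x : U ⧸ C) = v from congrArg Additive.ofMul hx]
          exact hv
        rw [h] at hxK
        rw [AddSubgroup.mem_bot, show v = Additive.ofMul (x : U ⧸ C) from congrArg Additive.ofMul hx.symm,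
          (QuotientGroup.eq_one_iff x).2 hxK]
        rfl
      · right
        rw [eq_top_iff]
        intro v _
        obtain ⟨x, hx⟩ := QuotientGroup.mk'_surjective C v.toMul
        have hxK : x ∈ K := h ▸ Subgroup.mem_top x
        rw [show v = Additive.ofMul (x : U ⧸ C) from congrArg Additive.ofMul hx.symm]
        exact hxK
  refine hx₁ (crossed_trivial hperf ε C (fun e c hc => hc e)
    (fun c hc d _ => hcen c hc d) x₁ (fun e => ?_) e₁)
  have h := DFunLike.congr_fun (key e) (Additive.ofMul (x₁ : U ⧸ C))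
  rw [hρx] at h
  exact QuotientGroup.eq.1 (Additive.ofMul.injective h).symm

/-- A group of automorphisms of a finite 2-group fixing every involution is solvable. -/
theorem isSolvable_of_fix_involutions {T : Type*} [Group T] [Finite T] (hT : IsPGroup 2 T)
    (A : Subgroup (MulAut T)) (hA : ∀ a ∈ A, ∀ x : T, x ^ 2 = 1 → a x = x) :
    Group.IsSolvable A := by
  by_contra hns
  obtain ⟨R, -, hR0, hRp, -⟩ := H21.exists_perfect_normal hns
  refine hR0 ((Subgroup.eq_bot_iff_forall R).2 fun r hr => Subtype.ext (MulEquiv.ext fun x => ?_))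
  exact perfect_fix_involutions hRp hT (A.subtype.comp R.subtype)
    (fun e y hy => hA _ (e : A).2 y hy) ⟨r, hr⟩ x

end Cfsg.Agent.H79.OutSolvable
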