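import Cfsg.Agent.H91.OddOnTwo.AutCard
import Cfsg.Agent.H74.Zsigmondy
import Cfsg.Agent.H86.ThreeCountsEven
import Mathlib

/-!
A group of linear maps over the field of two elements normalising a transitive group is solvable modulo
that group.
-/

set_option autoImplicit false

namespace Cfsg.Agent.H79.OutSolvable

open Subgroup

section General

variable {E : Type*} [CommGroup E] [Finite E]

/-- If all orbits on the nonidentity elements of an invariant subgroup have size divisible by `m`,
so has their number. -/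
theorem dvd_card_sub_one {P : Subgroup (MulAut E)} (H : Subgroup E)
    (hH : ∀ p ∈ P, ∀ x ∈ H, p x ∈ H) {m : ℕ}
    (horb : ∀ x ∈ H, x ≠ 1 → m ∣ Nat.card (MulAction.orbit P x)) : m ∣ Nat.card H - 1 := by
  classical
  let X : Set E := {x | x ∈ H ∧ x ≠ 1}
  letI : MulAction P X :=
    { smul := fun p x => ⟨(p : MulAut E) x, hH p p.2 x x.2.1, fun h => x.2.2 (by
        simpa using h)⟩
      one_smul := fun x => Subtype.ext rfl
      mul_smul := fun p q x => Subtype.ext rfl }
  have hX : Nat.card X = Nat.card H - 1 := by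
    have : X = (H : Set E) \ {1} := by ext; simp [X]
    rw [this, Nat.card_coe_set_eq, Set.ncard_sdiff_singleton_of_mem H.one_mem,
      ← Nat.card_coe_set_eq]
    rfl
  have := Fintype.ofFinite (MulAction.orbitRel.Quotient P X)
  rw [← hX, Nat.card_congr (MulAction.selfEquivSigmaOrbits P X), Nat.card_sigma]
  refine Finset.dvd_sum fun ω _ => ?_
  obtain ⟨x, hx⟩ : ∃ x : X, x = Quotient.out ω := ⟨_, rfl⟩
  have e : Nat.card (MulAction.orbit P x) = Nat.card (MulAction.orbit P (x : E)) := by
    refine Nat.card_congr (Equiv.ofBijective (fun z => ⟨((z : X) : E), ?_⟩) ⟨?_, ?_⟩)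
    · obtain ⟨p, hp⟩ := z.2
      exact ⟨p, by rw [← hp]; rfl⟩
    · intro z w h
      exact Subtype.ext (Subtype.ext (congrArg Subtype.val h :))
    · rintro ⟨_, p, rfl⟩
      exact ⟨⟨p • x, p, rfl⟩, rfl⟩
  rw [← hx, e]
  exact horb x x.2.1 x.2.2

/-- The orbit of a fixed-point-free cyclic group. -/
theorem orderOf_dvd_orbit (u : MulAut E) (hu : ∀ k : ℕ, u ^ k ≠ 1 → ∀ x, (u ^ k) x = x → x = 1)
    (x : E) (hx : x ≠ 1) : orderOf u ∣ Nat.card (MulAction.orbit (zpowers u) x) := by
  have h := MulAction.index_stabilizer (zpowers u) x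
  have hst : MulAction.stabilizer (zpowers u) x = ⊥ := by
    rw [eq_bot_iff]
    rintro ⟨g, hg⟩ hgx
    obtain ⟨k, rfl⟩ := mem_powers_iff_mem_zpowers.mpr hg
    by_contra hne
    exact hx (hu k (fun h => hne (Subtype.ext h)) x hgx)
  rw [hst, index_bot, Nat.card_zpowers] at h
  rw [h, Nat.card_coe_set_eq]

/-- The centralizer of an irreducible group of automorphisms of a finite elementary abelian group
is cyclic and its nonidentity elements fix only the identity. -/
theorem centralizer_irreducible {P : Subgroup (MulAut E)}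
    (hirr : ∀ H : Subgroup E, H ≠ ⊥ → (∀ p ∈ P, ∀ x ∈ H, p x ∈ H) → H = ⊤) :
    IsCyclic (centralizer (P : Set (MulAut E))) ∧
      ∀ c ∈ centralizer (P : Set (MulAut E)), c ≠ 1 → ∀ x, c x = x → x = 1 := by
  classical
  constructor
  · rcases subsingleton_or_nontrivial E with hE | hE
    · have : Subsingleton (MulAut E) := ⟨fun a b => MulEquiv.ext fun x => Subsingleton.elim _ _⟩
      exact isCyclic_of_subsingleton
    let A := Additive E
    let τ : MulAut E →* AddMonoid.End A :=
      { toFun := fun φ => MonoidHom.toAdditive φ.toMonoidHom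
        map_one' := AddMonoidHom.ext fun _ => rfl
        map_mul' := fun _ _ => AddMonoidHom.ext fun _ => rfl }
    let C : Subring (AddMonoid.End A) := Subring.centralizer (τ '' P)
    have : Finite (AddMonoid.End A) :=
      Finite.of_injective (fun f : AddMonoid.End A => (f : A → A)) DFunLike.coe_injective
    have hker : ∀ (c : C) (x : A), (c : AddMonoid.End A) x = 0 → c = 0 ∨ x = 0 := by
      intro c x hx
      by_contra hcx
      rw [not_or] at hcx
      let H : Subgroup E :=
        { carrier := {y | (c : AddMonoid.End A) (Additive.ofMul y) = 0}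
          one_mem' := map_zero _
          mul_mem' := fun {a b} (ha : (c : AddMonoid.End A) (Additive.ofMul a) = 0)
            (hb : (c : AddMonoid.End A) (Additive.ofMul b) = 0) => by
              show (c : AddMonoid.End A) (Additive.ofMul a + Additive.ofMul b) = 0
              rw [map_add, ha, hb, add_zero]
          inv_mem' := fun {a} (ha : (c : AddMonoid.End A) (Additive.ofMul a) = 0) => by
              show (c : AddMonoid.End A) (-Additive.ofMul a) = 0
              rw [map_neg, ha, neg_zero] }
      have hne : H ≠ ⊥ := fun h => hcx.2 (by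
        have hm : x.toMul ∈ H := hx
        rw [h, mem_bot] at hm
        exact congrArg Additive.ofMul hm)
      have htop := hirr H hne (fun p hp y hy => by
        have h := DFunLike.congr_fun (Subring.mem_centralizer_iff.1 c.2 (τ p) ⟨p, hp, rfl⟩)
          (Additive.ofMul y)
        show (c : AddMonoid.End A) (Additive.ofMul (p y)) = 0
        refine h.symm.trans ?_
        show τ p ((c : AddMonoid.End A) (Additive.ofMul y)) = 0
        rw [show (c : AddMonoid.End A) (Additive.ofMul y) = 0 from hy, map_zero])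
      exact hcx.1 (Subtype.ext (AddMonoidHom.ext fun y =>
        (show y.toMul ∈ H from htop ▸ mem_top _)))
    obtain ⟨v, hv⟩ := exists_ne (0 : A)
    have : Nontrivial C := ⟨1, 0, fun h => hv (DFunLike.congr_fun (congrArg Subtype.val h) v)⟩
    have : NoZeroDivisors C := ⟨fun {a b} hab => by
      by_contra h
      rw [not_or] at h
      have h0 : (a : AddMonoid.End A) ((b : AddMonoid.End A) v) = 0 :=
        DFunLike.congr_fun (congrArg Subtype.val hab) v
      exact hv ((hker b v ((hker a _ h0).resolve_left h.1)).resolve_left h.2)⟩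
    have : IsDomain C := NoZeroDivisors.to_isDomain C
    letI : CommRing C := { (inferInstance : Ring C) with
      mul_comm := (Finite.isDomain_to_isField C).mul_comm }
    let f : centralizer (P : Set (MulAut E)) →* C :=
      { toFun := fun φ => ⟨τ φ, Subring.mem_centralizer_iff.2 (by
          rintro _ ⟨p, hp, rfl⟩
          rw [← map_mul, ← map_mul, mem_centralizer_iff.1 φ.2 p hp])⟩
        map_one' := Subtype.ext (map_one τ)
        map_mul' := fun φ ψ => Subtype.ext (map_mul τ _ _) }
    have : IsDomain C := IsDomain.mk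
    exact isCyclic_of_subgroup_isDomain f (fun φ ψ h => Subtype.ext (MulEquiv.ext fun y =>
      congrArg Additive.toMul (DFunLike.congr_fun (congrArg Subtype.val h) (Additive.ofMul y))))
  · intro c hc hne x hx
    let H : Subgroup E :=
      { carrier := {y | c y = y}
        one_mem' := map_one c
        mul_mem' := fun {a b} (ha : c a = a) (hb : c b = b) => by
          show c (a * b) = a * b
          rw [map_mul, ha, hb]
        inv_mem' := fun {a} (ha : c a = a) => by
          show c a⁻¹ = a⁻¹
          rw [map_inv, ha] }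
    by_contra hx1
    have hb : H ≠ ⊥ := fun h => hx1 (mem_bot.1 (h ▸ (show x ∈ H from hx)))
    have ht := hirr H hb fun p hp y (hy : c y = y) => by
      show c (p y) = p y
      rw [← MulAut.mul_apply, ← mem_centralizer_iff.1 hc p hp, MulAut.mul_apply, hy]
    exact hne (MulEquiv.ext fun y => (show y ∈ H from ht ▸ mem_top y))

/-- An automorphism of prime order `p` fixing a nontrivial element of an `s`-group of order at most
`s ^ k` centralises it when `p` divides no `s ^ i - 1` with `i < k`. -/
theorem commute_of_fixed {G : Type*} [Group G] [Finite G] {p s k : ℕ} [Fact p.Prime] [Fact s.Prime]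
    {P R : Subgroup G} (hP : IsPGroup p P) (hk : Nat.card R ∣ s ^ k)
    (hPR : P ≤ normalizer (R : Set G)) (hps : p ≠ s) (hne : R ⊓ centralizer (P : Set G) ≠ ⊥)
    (hno : ∀ i, 0 < i → i < k → ¬ p ∣ s ^ i - 1) : P ≤ centralizer (R : Set G) := by
  letI : MulAction P R :=
    { smul := fun t u => ⟨(t : G) * u * (t : G)⁻¹, (mem_normalizer_iff.1 (hPR t.2) _).1 u.2⟩
      one_smul := fun u => Subtype.ext (show (1 : G) * u * (1 : G)⁻¹ = u by group)
      mul_smul := fun a b u => Subtype.ext (show (↑a * ↑b : G) * u * (↑a * ↑b : G)⁻¹ =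
        ↑a * (↑b * u * (↑b : G)⁻¹) * (↑a : G)⁻¹ by group) }
  have hmod := hP.card_modEq_card_fixedPoints R
  have hfix : Nat.card (MulAction.fixedPoints P R) = Nat.card ↥(R ⊓ centralizer (P : Set G)) := by
    refine Nat.card_congr
      { toFun := fun u => ⟨(u.1 : G), u.1.2, mem_centralizer_iff.2 fun t ht =>
          mul_inv_eq_iff_eq_mul.1 (congrArg Subtype.val (u.2 ⟨t, ht⟩))⟩
        invFun := fun u => ⟨⟨u.1, u.2.1⟩, fun t => Subtype.ext
          (mul_inv_eq_iff_eq_mul.2 (mem_centralizer_iff.1 u.2.2 t t.2))⟩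
        left_inv := fun u => rfl
        right_inv := fun u => rfl }
  rw [hfix] at hmod
  obtain ⟨a, hak, ha⟩ := (Nat.dvd_prime_pow (Fact.out : s.Prime)).1 hk
  obtain ⟨b, hba, hb⟩ := (Nat.dvd_prime_pow (Fact.out : s.Prime)).1
    (ha ▸ card_dvd_of_le (inf_le_left : R ⊓ centralizer (P : Set G) ≤ R))
  have hb0 : 0 < b := by
    by_contra h
    apply hne
    apply eq_bot_of_card_eq
    rw [hb, show b = 0 by omega, pow_zero]
  rw [ha, hb] at hmod
  rcases Nat.eq_or_lt_of_le hba with rfl | hlt
  · have hR : R ⊓ centralizer (P : Set G) = R :=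
      eq_of_le_of_card_ge inf_le_left (by rw [hb, ha])
    rw [le_centralizer_iff]
    exact inf_eq_left.1 hR
  exfalso
  have h1 := (Nat.modEq_iff_dvd' (Nat.pow_le_pow_right (Fact.out : s.Prime).pos hba)).1 hmod.symm
  rw [show s ^ a - s ^ b = s ^ b * (s ^ (a - b) - 1) by
    rw [Nat.mul_sub, mul_one, ← pow_add, Nat.add_sub_cancel' hba]] at h1
  rcases (Fact.out : p.Prime).dvd_mul.1 h1 with h | h
  · exact hps ((Nat.prime_dvd_prime_iff_eq Fact.out Fact.out).1 ((Fact.out : p.Prime).dvd_of_dvd_pow h))
  · exact hno (a - b) (Nat.sub_pos_of_lt hlt) (by omega) h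

end General

theorem cyclic_comm {G : Type*} [Group G] [IsCyclic G] (a b : G) : a * b = b * a :=
  IsCyclic.commutative.is_comm.comm a b

/-- A prime power dividing `2 ^ n - 1` but no smaller `2 ^ w - 1`. -/
theorem exists_primitive {n : ℕ} (hn : 1 < n) :
    ∃ r a : ℕ, r.Prime ∧ r ^ (a + 1) ∣ 2 ^ n - 1 ∧
      (∀ w, 0 < w → w < n → ¬ r ^ (a + 1) ∣ 2 ^ w - 1) ∧ (a = 0 ∨ (n = 6 ∧ r = 3 ∧ a = 1)) := by
  by_cases h6 : n = 6
  · subst h6
    exact ⟨3, 1, Nat.prime_three, by norm_num, fun w h1 h2 => by interval_cases w <;> norm_num,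
      Or.inr ⟨rfl, rfl, rfl⟩⟩
  obtain ⟨r, hr, hd, hno⟩ := H74.zsigmondy (a := 2) Nat.one_lt_two hn (fun h => h6 h.2) (by
    rintro ⟨-, m, hm⟩
    rcases m with _ | m
    · simp at hm
    · rw [pow_succ] at hm; omega)
  exact ⟨r, 0, hr, by simpa using hd, fun w h1 h2 => by simpa using hno w h1 h2, Or.inl rfl⟩

/-- A group of automorphisms of an elementary abelian 2-group normalising a group transitive on
involutions is solvable if its intersection with that group is. -/
theorem isSolvable_of_normalize_transitive {E : Type*} [CommGroup E] [Finite E]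
    (hE2 : ∀ x : E, x ^ 2 = 1) (Y Z : Subgroup (MulAut E))
    (hZ : Z ≤ normalizer (Y : Set (MulAut E)))
    (htr : ∀ x y : E, x ≠ 1 → y ≠ 1 → ∃ φ ∈ Y, φ x = y)
    (hYZ : Group.IsSolvable ↥(Z ⊓ Y)) : Group.IsSolvable Z := by
  classical
  obtain ⟨n, hn⟩ : ∃ n, Nat.card E = 2 ^ n := by
    have : Fact (Nat.Prime 2) := ⟨Nat.prime_two⟩
    exact (IsPGroup.iff_card (p := 2)).1 fun x => ⟨1, by rw [pow_one]; exact hE2 x⟩
  by_cases hn1 : n ≤ 1
  · have hsub : Subsingleton (MulAut E) := ⟨fun φ ψ => MulEquiv.ext fun x => by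
      by_contra hne
      have hx : x ≠ 1 := fun h => hne (by rw [h, map_one, map_one])
      have h1 : φ x ≠ 1 := fun h => hx (φ.injective (h.trans (map_one φ).symm))
      have h2 : ψ x ≠ 1 := fun h => hx (ψ.injective (h.trans (map_one ψ).symm))
      have := Fintype.ofFinite E
      have h3 : ({1, φ x, ψ x} : Finset E).card = 3 := by
        rw [Finset.card_insert_of_notMem, Finset.card_insert_of_notMem, Finset.card_singleton]
        · simpa using hne
        · simp only [Finset.mem_insert, Finset.mem_singleton, not_or]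
          exact ⟨Ne.symm h1, Ne.symm h2⟩
      have h4 := Finset.card_le_univ ({1, φ x, ψ x} : Finset E)
      rw [h3, ← Nat.card_eq_fintype_card, hn] at h4
      have := Nat.pow_le_pow_right (show 0 < 2 by norm_num) hn1
      omega⟩
    exact Group.isSolvable_of_comm fun a b => Subsingleton.elim _ _
  obtain ⟨r, a, hr, hdvd, hprim, hcase⟩ := exists_primitive (n := n) (by omega)
  have : Fact r.Prime := ⟨hr⟩
  let M : Subgroup (MulAut E) := normalizer (Y : Set (MulAut E))
  let Y' : Subgroup M := Y.subgroupOf M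
  have hYn : Y'.Normal := Subgroup.normal_in_normalizer
  obtain ⟨P⟩ := (inferInstance : Nonempty (Sylow r Y'))
  let Pm : Subgroup M := (P : Subgroup Y').map Y'.subtype
  let R : Subgroup (MulAut E) := Pm.map M.subtype
  have hRcard : Nat.card R = r ^ (Nat.card Y).factorization r := by
    rw [card_map_of_injective M.subtype_injective, card_map_of_injective Y'.subtype_injective,
      P.card_eq_multiplicity, Nat.card_congr (subgroupOfEquivOfLe le_normalizer).toEquiv]
  have hRY : R ≤ Y := by
    rintro _ ⟨_, ⟨x, -, rfl⟩, rfl⟩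
    exact x.2
  have hRp : IsPGroup r R := IsPGroup.of_card hRcard
  -- orbit sizes
  have horb : ∀ x : E, x ≠ 1 → r ^ (a + 1) ∣ Nat.card (MulAction.orbit R x) := by
    intro x hx
    let St := MulAction.stabilizer (MulAut E) x
    have key : ∀ K : Subgroup (MulAut E),
        Nat.card (MulAction.orbit K x) * Nat.card ↥(K ⊓ St) = Nat.card K := by
      intro K
      have h := MulAction.index_stabilizer K x
      rw [← card_mul_index (MulAction.stabilizer K x), h, mul_comm, Nat.card_coe_set_eq]
      congr 1
      have e : MulAction.stabilizer K x = St.subgroupOf K := rfl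
      rw [e, inf_comm, ← inf_subgroupOf_right]
      exact (Nat.card_congr (subgroupOfEquivOfLe (inf_le_right : St ⊓ K ≤ K)).toEquiv).symm
    have hY := key Y
    have hoY : MulAction.orbit Y x = {y : E | y ≠ 1} := by
      ext y
      constructor
      · rintro ⟨φ, rfl⟩ h
        exact hx ((φ : MulAut E).injective (h.trans (map_one _).symm))
      · intro hy
        obtain ⟨φ, hφ, h⟩ := htr x y hx hy
        exact ⟨⟨φ, hφ⟩, h⟩
    have hcY : Nat.card (MulAction.orbit Y x) = 2 ^ n - 1 := by
      rw [hoY, Nat.card_coe_set_eq, show {y : E | y ≠ 1} = Set.univ \ {1} by ext; simp,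
        Set.ncard_sdiff_singleton_of_mem (Set.mem_univ _), Set.ncard_univ, hn]
    have hd : r ^ (a + 1) * Nat.card ↥(R ⊓ St) ∣ Nat.card Y := by
      rw [← hY, hcY]
      exact mul_dvd_mul hdvd (card_dvd_of_le (inf_le_inf_right _ hRY))
    obtain ⟨j, -, hj⟩ := (Nat.dvd_prime_pow hr).1
      (hRcard ▸ card_dvd_of_le (inf_le_left : R ⊓ St ≤ R))
    rw [hj, ← pow_add] at hd
    have hle := (hr.pow_dvd_iff_le_factorization Nat.card_pos.ne').1 hd
    have hR' := key R
    rw [hj, hRcard] at hR'
    obtain ⟨i, -, hi⟩ := (Nat.dvd_prime_pow hr).1 (Dvd.intro _ hR')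
    rw [hi, ← pow_add] at hR'
    have := Nat.pow_right_injective hr.two_le hR'
    rw [hi]
    exact pow_dvd_pow r (by omega)
  have hdim : ∀ (P : Subgroup (MulAut E)) (m : ℕ), (∀ w, 0 < w → w < n → ¬ m ∣ 2 ^ w - 1) →
      (∀ x : E, x ≠ 1 → m ∣ Nat.card (MulAction.orbit P x)) →
      ∀ H : Subgroup E, H ≠ ⊥ → (∀ p ∈ P, ∀ x ∈ H, p x ∈ H) → H = ⊤ := by
    intro P m hm ho H hH hinv
    obtain ⟨w, hwn, hw⟩ := (Nat.dvd_prime_pow Nat.prime_two).1 (hn ▸ H.card_subgroup_dvd_card)
    have h := dvd_card_sub_one H hinv (fun x _ hx => ho x hx)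
    rw [hw] at h
    have hw0 : 0 < w := by
      by_contra h0
      exact hH (eq_bot_of_card_eq _ (by rw [hw, show w = 0 by omega, pow_zero]))
    apply eq_top_of_card_eq
    rw [hw, hn]
    by_contra hne
    exact hm w hw0 (lt_of_le_of_ne hwn fun e => hne (by rw [e])) h
  have hirr := hdim R _ hprim horb
  obtain ⟨hKc, hKf⟩ := centralizer_irreducible hirr
  have := hKc
  -- a central element generating an irreducible group makes the Sylow subgroup abelian
  have habel : ∀ u ∈ centralizer (R : Set (MulAut E)),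
      (∀ w, 0 < w → w < n → ¬ orderOf u ∣ 2 ^ w - 1) → ∀ s ∈ R, ∀ t ∈ R, s * t = t * s := by
    intro u hu hord s hs t ht
    have hirru := hdim (zpowers u) _ hord fun x hx =>
      orderOf_dvd_orbit u (fun k hk => hKf _ (pow_mem hu k) hk) x hx
    have := (centralizer_irreducible hirru).1
    have hle : R ≤ centralizer (zpowers u : Set (MulAut E)) := by
      rw [le_centralizer_iff, zpowers_le]
      exact hu
    exact congrArg Subtype.val
      (cyclic_comm (⟨s, hle hs⟩ : centralizer (zpowers u : Set (MulAut E))) ⟨t, hle ht⟩)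
  let N : Subgroup (MulAut E) := normalizer (R : Set (MulAut E))
  have hKsol : Group.IsSolvable (centralizer (R : Set (MulAut E))) :=
    Group.isSolvable_of_comm fun s t => cyclic_comm s t
  have hcyc : (∀ s ∈ R, ∀ t ∈ R, s * t = t * s) → IsCyclic R := by
    intro h
    have hle : R ≤ centralizer (R : Set (MulAut E)) := fun s hs =>
      mem_centralizer_iff.2 fun t ht => h t ht s hs
    exact isCyclic_of_injective (inclusion hle) (inclusion_injective hle)
  have hNcyc : IsCyclic R → Group.IsSolvable N := by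
    intro hc
    let f : N →* MulAut R := R.normalizerMonoidHom
    have hker : f.ker ≤ (centralizer (R : Set (MulAut E))).subgroupOf N := by
      rw [Subgroup.normalizerMonoidHom_ker]
    have : Group.IsSolvable ↥((centralizer (R : Set (MulAut E))).subgroupOf N) :=
      Group.isSolvable_of_isSolvable_injective
        (f := ((N.subtype.comp ((centralizer (R : Set (MulAut E))).subgroupOf N).subtype).codRestrict
          (centralizer (R : Set (MulAut E))) fun x => x.2))
        (fun x y h => Subtype.ext (Subtype.ext (congrArg Subtype.val h :)))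
    have : Group.IsSolvable f.ker :=
      Group.isSolvable_of_isSolvable_injective (f := inclusion hker) (inclusion_injective hker)
    have : Group.IsSolvable (MulAut R) := Group.isSolvable_of_comm fun s t =>
      (IsCyclic.mulAutMulEquiv R).injective (by rw [map_mul, map_mul, mul_comm])
    exact Group.isSolvable_of_ker_le_range f.ker.subtype f
      (le_of_eq (range_subtype _).symm)
  have hN : Group.IsSolvable N := by
    by_cases habR : ∀ s ∈ R, ∀ t ∈ R, s * t = t * s
    · exact hNcyc (hcyc habR)
    have hz : ∀ z ∈ R, z ∈ centralizer (R : Set (MulAut E)) → z ^ r ^ a = 1 := by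
      intro z hzR hzC
      obtain ⟨b, hb⟩ := IsPGroup.iff_orderOf.1 hRp ⟨z, hzR⟩
      rw [← orderOf_coe] at hb
      change orderOf z = r ^ b at hb
      by_contra hne
      have hab : a + 1 ≤ b := by
        by_contra hlt
        exact hne (orderOf_dvd_iff_pow_eq_one.1 (hb ▸ pow_dvd_pow r (by omega)))
      exact habR (habel z hzC fun w h1 h2 hd =>
        hprim w h1 h2 ((pow_dvd_pow r hab).trans (hb ▸ hd)))
    obtain ⟨z, hz1, hzR, hzC⟩ : ∃ z, z ≠ 1 ∧ z ∈ R ∧ z ∈ centralizer (R : Set (MulAut E)) := by
      have : Nontrivial R := by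
        by_contra h
        rw [not_nontrivial_iff_subsingleton] at h
        exact habR fun s hs t ht => congrArg Subtype.val
          (Subsingleton.elim ((⟨s, hs⟩ * ⟨t, ht⟩ : R)) (⟨t, ht⟩ * ⟨s, hs⟩))
      obtain ⟨⟨z, hz⟩, hzne⟩ := @exists_ne _ hRp.center_nontrivial (1 : center R)
      refine ⟨z, fun h => hzne (Subtype.ext (Subtype.ext h)), z.2, mem_centralizer_iff.2 fun t ht =>
        congrArg Subtype.val (mem_center_iff.1 hz ⟨t, ht⟩)⟩
    obtain rfl | ⟨hn6, rfl, rfl⟩ := hcase
    · exact absurd (by simpa using hz z hzR hzC) hz1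
    subst hn6
    have hz3 : orderOf z = 3 := orderOf_eq_prime (by simpa using hz z hzR hzC) hz1
    have hdA := H91.OddOnTwo.card_mulAut_dvd hE2 hn
    rw [show (∏ i : Fin 6, (2 ^ 6 - 2 ^ (i : ℕ))) = 3 ^ 4 * (2 ^ 15 * 5 * 7 ^ 2 * 31) by
      simp [Fin.prod_univ_succ]] at hdA
    have hR4 : Nat.card R ∣ 3 ^ 4 := by
      have h := (card_subgroup_dvd_card R).trans hdA
      rw [hRcard] at h ⊢
      exact (Nat.Coprime.pow_left _ (by norm_num)).dvd_of_dvd_mul_right h
    refine H86.ThreeEven.solvable_of_primeFactors Nat.prime_two Nat.prime_three (by norm_num) ?_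
    intro p hp
    rw [Finset.mem_insert, Finset.mem_singleton]
    rw [Nat.mem_primeFactors] at hp
    have := Fact.mk hp.1
    by_contra hpn
    rw [not_or] at hpn
    have hpd := hp.2.1.trans ((card_subgroup_dvd_card N).trans hdA)
    have hp57 : p = 5 ∨ p = 7 ∨ p = 31 := by
      have e : ∀ q : ℕ, q.Prime → p ∣ q → p = q := fun q hq h =>
        (Nat.prime_dvd_prime_iff_eq hp.1 hq).1 h
      rcases hp.1.dvd_mul.1 hpd with h | h
      · exact absurd (e 3 Nat.prime_three (hp.1.dvd_of_dvd_pow h)) hpn.2
      rcases hp.1.dvd_mul.1 h with h | h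
      · rcases hp.1.dvd_mul.1 h with h | h
        · rcases hp.1.dvd_mul.1 h with h | h
          · exact absurd (e 2 Nat.prime_two (hp.1.dvd_of_dvd_pow h)) hpn.1
          · exact Or.inl (e 5 (by norm_num) h)
        · exact Or.inr (Or.inl (e 7 (by norm_num) (hp.1.dvd_of_dvd_pow h)))
      · exact Or.inr (Or.inr (e 31 (by norm_num) h))
    obtain ⟨g, hg⟩ := exists_prime_orderOf_dvd_card' (G := N) p hp.2.1
    have hgord : orderOf (g : MulAut E) = p := by rw [orderOf_coe]; exact hg
    have hPg : IsPGroup p (zpowers (g : MulAut E)) :=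
      IsPGroup.of_card (n := 1) (by rw [Nat.card_zpowers, hgord, pow_one])
    have hgN : zpowers (g : MulAut E) ≤ N := zpowers_le.2 g.2
    -- the centre of the Sylow subgroup is centralised
    let ZR : Subgroup (MulAut E) := R ⊓ centralizer (R : Set (MulAut E))
    have hZn : zpowers (g : MulAut E) ≤ normalizer (ZR : Set (MulAut E)) := by
      refine hgN.trans fun x hx => mem_normalizer_iff.2 fun y => ?_
      have h1 := mem_normalizer_iff.1 hx
      constructor
      · rintro ⟨hy, hyc⟩
        refine ⟨(h1 y).1 hy, mem_centralizer_iff.2 fun t ht => ?_⟩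
        have ht' : x⁻¹ * t * x ∈ R := (h1 _).2 (by simpa [mul_assoc] using ht)
        have := congrArg (fun w => x * w * x⁻¹) (mem_centralizer_iff.1 hyc _ ht')
        simpa [mul_assoc] using this
      · rintro ⟨hy, hyc⟩
        refine ⟨(h1 y).2 hy, mem_centralizer_iff.2 fun t ht => ?_⟩
        have := congrArg (fun w => x⁻¹ * w * x) (mem_centralizer_iff.1 hyc _ ((h1 t).1 ht))
        simpa [mul_assoc] using this
    have hZcard : Nat.card ZR ∣ 3 ^ 3 := by
      obtain ⟨b, hb, hbb⟩ := (Nat.dvd_prime_pow Nat.prime_three).1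
        ((card_dvd_of_le (inf_le_left : ZR ≤ R)).trans hR4)
      rw [hbb]
      refine pow_dvd_pow 3 ?_
      by_contra hb4
      have hb4' : b = 4 := by omega
      apply habR
      have hZR : ZR = R := eq_of_le_of_card_ge inf_le_left (by
        rw [hbb, hb4']; exact Nat.le_of_dvd (by norm_num) hR4)
      intro s hs t ht
      rw [← hZR] at ht
      exact (mem_centralizer_iff.1 ht.2 s hs)
    have hno : ∀ i, 0 < i → i < 4 → ¬ p ∣ 3 ^ i - 1 := by
      intro i h1 h2
      rcases hp57 with rfl | rfl | rfl <;> interval_cases i <;> norm_num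
    have hgZ : zpowers (g : MulAut E) ≤ centralizer (ZR : Set (MulAut E)) :=
      H91.OddOnTwo.commute_of_not_dvd (s := 3) hPg (hRp.to_le inf_le_left) hZcard hZn
        hpn.2 fun i h1 h2 => hno i h1 (by omega)
    have hgR : zpowers (g : MulAut E) ≤ centralizer (R : Set (MulAut E)) := by
      refine commute_of_fixed (s := 3) hPg hR4 hgN hpn.2 (fun h => hz1 ?_) hno
      have hmem : z ∈ R ⊓ centralizer (zpowers (g : MulAut E) : Set (MulAut E)) :=
        ⟨hzR, le_centralizer_iff.1 hgZ ⟨hzR, hzC⟩⟩
      rwa [h, mem_bot] at hmem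
    have hgC : (g : MulAut E) ∈ centralizer (R : Set (MulAut E)) := hgR (mem_zpowers _)
    have hg1 : (g : MulAut E) ≠ 1 := fun h => hp.1.one_lt.ne' (by rw [← hgord, h, orderOf_one])
    have hp63 : p ∣ Nat.card (⊤ : Subgroup E) - 1 :=
      dvd_card_sub_one (P := zpowers (g : MulAut E)) ⊤ (fun _ _ _ _ => mem_top _) fun x _ hx =>
        hgord ▸ orderOf_dvd_orbit _ (fun k hk => hKf _ (pow_mem hgC k) hk) x hx
    rw [card_top, hn] at hp63
    rcases hp57 with rfl | rfl | rfl
    · norm_num at hp63
    · refine habR (habel (g * z) (mul_mem hgC hzC) fun w h1 h2 hd => ?_)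
      have hcom : Commute (g : MulAut E) z := (mem_centralizer_iff.1 hgC z hzR).symm
      rw [hcom.orderOf_mul_eq_mul_orderOf_of_coprime (by rw [hgord, hz3]; norm_num),
        hgord, hz3] at hd
      revert hd
      interval_cases w <;> norm_num
    · norm_num at hp63
  -- Frattini argument
  have htop := Sylow.normalizer_sup_eq_top P
  let q : M →* M ⧸ Y' := QuotientGroup.mk' Y'
  have hNM : Group.IsSolvable ↥(normalizer (Pm : Set M)) := by
    let f : ↥(normalizer (Pm : Set M)) →* N :=
      { toFun := fun x => ⟨((x : M) : MulAut E), mem_normalizer_iff.2 fun y => by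
          have hx := mem_normalizer_iff.1 x.2
          constructor
          · rintro ⟨y', hy', rfl⟩
            exact ⟨_, (hx y').1 hy', rfl⟩
          · rintro ⟨y', hy', he⟩
            refine ⟨(x : M)⁻¹ * y' * x, (hx _).2 (by simpa [mul_assoc] using hy'), ?_⟩
            show ((x : M) : MulAut E)⁻¹ * (y' : MulAut E) * ((x : M) : MulAut E) = y
            rw [show (y' : MulAut E) = _ from he]
            group⟩
        map_one' := rfl
        map_mul' := fun _ _ => rfl }
    exact Group.isSolvable_of_isSolvable_injective (f := f)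
      fun x y h => Subtype.ext (Subtype.ext (congrArg Subtype.val h :))
  have hsurj : Function.Surjective (q.comp (normalizer (Pm : Set M)).subtype) := by
    intro c
    obtain ⟨m, rfl⟩ := QuotientGroup.mk'_surjective _ c
    have hm : m ∈ normalizer (Pm : Set M) ⊔ Y' := htop ▸ mem_top m
    obtain ⟨x, hx, y, hy, rfl⟩ := mem_sup_of_normal_right.1 hm
    refine ⟨⟨x, hx⟩, ?_⟩
    show q x = q (x * y)
    rw [map_mul, show q y = 1 from (QuotientGroup.eq_one_iff y).2 hy, mul_one]
  have : Group.IsSolvable (M ⧸ Y') := Group.isSolvable_of_surjective hsurj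
  let iZ : Z →* M := inclusion hZ
  let h : Z →* M ⧸ Y' := q.comp iZ
  have hk : Group.IsSolvable h.ker := by
    refine Group.isSolvable_of_isSolvable_injective
      (f := (Z.subtype.comp h.ker.subtype).codRestrict (Z ⊓ Y) fun x => ⟨x.1.2, ?_⟩)
      (fun x y e => Subtype.ext (Subtype.ext (congrArg Subtype.val e :)))
    exact (QuotientGroup.eq_one_iff (iZ x.1)).1 x.2
  exact Group.isSolvable_of_ker_le_range h.ker.subtype h (le_of_eq (range_subtype _).symm)

end Cfsg.Agent.H79.OutSolvable
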