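import Cfsg.Agent.H23.OutSolvable
import Cfsg.Agent.H79.OutSolvable.FixInvolutions
import Cfsg.Agent.H79.OutSolvable.Transitive
import Cfsg.Agent.H95.FrattiniAct
import Cfsg.Agent.H50.AutGLEmbed
import Cfsg.Agent.H50.AltEight.Classify
import Cfsg.Agent.H6.SmallOrder
import Cfsg.Agent.S0014
import Cfsg.Agent.S0205

/-!
Criteria on a Sylow 2-subgroup of a simple group for the solvability of its outer automorphism group.
-/

set_option autoImplicit false

namespace Cfsg.Agent.H79.OutSolvable

open Subgroup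

universe u

variable {G : Type u} [Group G] [Finite G] (S : Sylow 2 G)

/-- The automorphisms stabilising a Sylow 2-subgroup. -/
def stab : Subgroup (MulAut G) where
  carrier := {φ | ∀ s : G, φ s ∈ (S : Subgroup G) ↔ s ∈ (S : Subgroup G)}
  mul_mem' {a b} ha hb s := (ha (b s)).trans (hb s)
  one_mem' _ := Iff.rfl
  inv_mem' {a} ha s := by
    have h := ha (a⁻¹ s)
    rw [MulAut.apply_inv_self] at h
    exact h.symm

/-- Restriction to the Sylow 2-subgroup. -/
def res : stab S →* MulAut ↥(S : Subgroup G) where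
  toFun φ :=
    { toFun := fun s => ⟨(φ : MulAut G) s, (φ.2 s).2 s.2⟩
      invFun := fun s => ⟨(φ : MulAut G)⁻¹ s, ((inv_mem φ.2) s).2 s.2⟩
      left_inv := fun s => Subtype.ext (MulAut.inv_apply_self G (φ : MulAut G) s)
      right_inv := fun s => Subtype.ext (MulAut.apply_inv_self G (φ : MulAut G) s)
      map_mul' := fun s t => Subtype.ext (map_mul (φ : MulAut G) (s : G) (t : G)) }
  map_one' := MulEquiv.ext fun _ => Subtype.ext rfl
  map_mul' _ _ := MulEquiv.ext fun _ => Subtype.ext rfl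

/-- Inner automorphisms by elements of the normaliser. -/
def innStab : normalizer ((S : Subgroup G) : Set G) →* stab S where
  toFun g := ⟨MulAut.conj (g : G), fun s => (mem_normalizer_iff.1 g.2 s).symm⟩
  map_one' := Subtype.ext (map_one _)
  map_mul' _ _ := Subtype.ext (map_mul _ _ _)

/-- `Out G` is solvable when the automorphisms stabilising a Sylow 2-subgroup act on it through a
solvable group modulo a solvable kernel. -/
theorem out_solvable_of_image [IsSimpleGroup G] (hS1 : (S : Subgroup G) ≠ ⊥) {M : Type*} [Group M]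
    (f : MulAut ↥(S : Subgroup G) →* M) (hker : Group.IsSolvable f.ker)
    (him : Group.IsSolvable (f.comp (res S)).range) : Group.IsSolvable (Cfsg.Out G) := by
  classical
  haveI : Fact (Nat.Prime 2) := ⟨Nat.prime_two⟩
  let C : Subgroup (MulAut G) := (res S).ker.map (stab S).subtype
  have hC : ∀ φ : MulAut G, φ ∈ C → ∀ s : G, s ∈ S → φ s = s := by
    rintro _ ⟨φ, hφ, rfl⟩ s hs
    exact congrArg Subtype.val (DFunLike.congr_fun (MonoidHom.mem_ker.1 hφ) ⟨s, hs⟩)
  have hO : ∀ K : Subgroup G, K.Normal → Odd (Nat.card K) → K = ⊥ := by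
    intro K hK hodd
    refine (hK.eq_bot_or_eq_top).resolve_right fun htop => hS1 ?_
    obtain ⟨k, hk⟩ := IsPGroup.iff_card.1 S.2
    have hdvd : Nat.card (S : Subgroup G) ∣ Nat.card K := by
      rw [htop, Subgroup.card_top]; exact (S : Subgroup G).card_subgroup_dvd_card
    apply Subgroup.eq_bot_of_card_eq
    exact Nat.eq_one_of_dvd_coprimes ((Nat.coprime_two_left.mpr hodd).pow_left k) (hk ▸ dvd_rfl) hdvd
  haveI : Group.IsSolvable C := H59.isSolvable_of_odd_commutator
    (H59.odd_card_commutator_autFix hO S C hC) fun K hK => Cfsg.Agent.S0205.result hK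
  haveI : Group.IsSolvable (res S).ker :=
    Group.isSolvable_of_isSolvable_injective
      (f := ((res S).ker.equivMapOfInjective (stab S).subtype (stab S).subtype_injective).toMonoidHom)
      (MulEquiv.injective _)
  haveI := hker
  haveI := him
  -- the kernel of the composite
  let k : (f.comp (res S)).ker →* f.ker :=
    ((res S).comp (f.comp (res S)).ker.subtype).codRestrict f.ker fun x => x.2
  let i : k.ker →* (res S).ker :=
    ((f.comp (res S)).ker.subtype.comp k.ker.subtype).codRestrict (res S).ker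
      fun x => congrArg Subtype.val (x.2 : k x.1 = 1)
  haveI : Group.IsSolvable k.ker := Group.isSolvable_of_isSolvable_injective (f := i)
    fun x y h => Subtype.ext (Subtype.ext (congrArg Subtype.val h :))
  haveI : Group.IsSolvable (f.comp (res S)).ker :=
    Group.isSolvable_of_ker_le_range k.ker.subtype k (le_of_eq (range_subtype _).symm)
  haveI : Group.IsSolvable (stab S) :=
    Group.isSolvable_of_ker_le_range (f.comp (res S)).ker.subtype (f.comp (res S)).rangeRestrict
      (by rw [MonoidHom.ker_rangeRestrict, range_subtype])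
  refine Group.isSolvable_of_surjective
    (f := (QuotientGroup.mk' (Cfsg.Inn G)).comp (stab S).subtype) ?_
  intro x
  obtain ⟨φ, rfl⟩ := QuotientGroup.mk'_surjective _ x
  let Q : Sylow 2 G := S.mapSurjective (f := φ.toMonoidHom) φ.surjective
  obtain ⟨g, hg⟩ := MulAction.exists_smul_eq G Q S
  have hg' : ∀ s : G, g * φ s * g⁻¹ ∈ (S : Subgroup G) ↔ s ∈ (S : Subgroup G) := by
    intro s
    have h1 : g * φ s * g⁻¹ ∈ ((g • Q : Sylow 2 G) : Subgroup G) ↔ φ s ∈ (Q : Subgroup G) := by
      rw [Sylow.coe_subgroup_smul]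
      exact Subgroup.smul_mem_pointwise_smul_iff (a := MulAut.conj g)
    rw [hg] at h1
    refine h1.trans ?_
    show φ s ∈ (S : Subgroup G).map φ.toMonoidHom ↔ _
    exact Subgroup.mem_map_iff_mem (f := φ.toMonoidHom) φ.injective
  refine ⟨⟨MulAut.conj g * φ, hg'⟩, ?_⟩
  show QuotientGroup.mk' (Cfsg.Inn G) (MulAut.conj g * φ) = QuotientGroup.mk' (Cfsg.Inn G) φ
  have h1 : QuotientGroup.mk' (Cfsg.Inn G) (MulAut.conj g) = 1 :=
    (QuotientGroup.eq_one_iff _).2 ⟨g, rfl⟩
  rw [map_mul, h1, one_mul]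

theorem frattiniAct_ker_solvable :
    Group.IsSolvable (H95.frattiniAct ↥(S : Subgroup G)).ker := by
  haveI : Fact (Nat.Prime 2) := ⟨Nat.prime_two⟩
  have := (H95.frattiniAct_ker (P := ↥(S : Subgroup G)) S.2).isNilpotent
  infer_instance

theorem card_frattiniQuot_le (T : Finset ↥(S : Subgroup G))
    (hT : Subgroup.closure (T : Set ↥(S : Subgroup G)) = ⊤) :
    Nat.card (↥(S : Subgroup G) ⧸ frattini ↥(S : Subgroup G)) ≤ 2 ^ T.card := by
  haveI : Fact (Nat.Prime 2) := ⟨Nat.prime_two⟩
  obtain ⟨m, hm⟩ := IsPGroup.iff_card.1 (S.2.to_quotient (frattini ↥(S : Subgroup G)))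
  rw [hm]
  exact Nat.pow_le_pow_right (by norm_num)
    ((Cfsg.Agent.S0014.result 2 m S.2 (by rw [index_eq_card]; exact hm)).2 T hT)

/-- The embedding of the automorphisms of a small Frattini quotient. -/
theorem exists_frattini_embed {k : ℕ}
    (hk : Nat.card (↥(S : Subgroup G) ⧸ frattini ↥(S : Subgroup G)) ≤ 2 ^ k) :
    ∃ f : MulAut (↥(S : Subgroup G) ⧸ frattini ↥(S : Subgroup G)) →* GL (Fin k) (ZMod 2),
      Function.Injective f := by
  haveI : Fact (Nat.Prime 2) := ⟨Nat.prime_two⟩
  letI := H95.frattiniCommGroup (P := ↥(S : Subgroup G)) S.2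
  refine H50.exists_injective_hom_GL (p := 2) (fun v => ?_) hk
  obtain ⟨s, rfl⟩ := QuotientGroup.mk'_surjective _ v
  rw [← map_pow]
  exact (QuotientGroup.eq_one_iff _).2 (H24.pow_mem_frattini S.2 s)

/-- Two generators. -/
theorem case_two [IsSimpleGroup G] (hS1 : (S : Subgroup G) ≠ ⊥)
    (h : ∃ a b : ↥(S : Subgroup G), Subgroup.closure ({a, b} : Set ↥(S : Subgroup G)) = ⊤) :
    Group.IsSolvable (Cfsg.Out G) := by
  classical
  obtain ⟨a, b, hab⟩ := h
  have hV := (card_frattiniQuot_le S {a, b} (by simpa using hab)).trans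
    (Nat.pow_le_pow_right (by norm_num) Finset.card_le_two)
  obtain ⟨j, hj⟩ := exists_frattini_embed S hV
  have hker : (j.comp (H95.frattiniAct ↥(S : Subgroup G))).ker = (H95.frattiniAct ↥(S : Subgroup G)).ker := by
    ext x
    simp only [MonoidHom.mem_ker, MonoidHom.comp_apply]
    exact map_eq_one_iff j hj
  refine out_solvable_of_image S hS1 (j.comp (H95.frattiniAct ↥(S : Subgroup G)))
    (hker ▸ frattiniAct_ker_solvable S) (H6.isSolvable_of_card_lt_sixty ?_)
  refine lt_of_le_of_lt (card_le_card_group _) ?_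
  haveI : Fact (Nat.Prime 2) := ⟨Nat.prime_two⟩
  rw [Matrix.card_GL_field, Fin.prod_univ_two, ZMod.card]
  decide

/-- Three generators and an element of odd order acting nontrivially. -/
theorem case_three [IsSimpleGroup G] (hS1 : (S : Subgroup G) ≠ ⊥)
    (h : ∃ a b c : ↥(S : Subgroup G), Subgroup.closure ({a, b, c} : Set ↥(S : Subgroup G)) = ⊤)
    {g : G} (hg : g ∈ Subgroup.normalizer ((S : Subgroup G) : Set G)) (hodd : Odd (orderOf g))
    (hgc : g ∉ Subgroup.centralizer ((S : Subgroup G) : Set G)) :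
    Group.IsSolvable (Cfsg.Out G) := by
  classical
  haveI : Fact (Nat.Prime 2) := ⟨Nat.prime_two⟩
  obtain ⟨a, b, c, habc⟩ := h
  have hV := (card_frattiniQuot_le S {a, b, c} (by simpa using habc)).trans
    (Nat.pow_le_pow_right (by norm_num) Finset.card_le_three)
  obtain ⟨j, hj⟩ := exists_frattini_embed S hV
  obtain ⟨hsimple, h168⟩ := H50.AltEight.gl_three_two
  haveI := hsimple
  set fA := H95.frattiniAct ↥(S : Subgroup G)
  have hker : (j.comp fA).ker = fA.ker := by
    ext x
    simp only [MonoidHom.mem_ker, MonoidHom.comp_apply]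
    exact map_eq_one_iff j hj
  refine out_solvable_of_image S hS1 (j.comp fA) (hker ▸ frattiniAct_ker_solvable S) ?_
  set F := (j.comp fA).comp (res S) with hF
  let q := F.comp (innStab S)
  -- the image of the normaliser
  have hqS : ∀ x : normalizer ((S : Subgroup G) : Set G), (x : G) ∈ (S : Subgroup G) → q x = 1 := by
    intro x hx
    have h1 : res S (innStab S x) = MulAut.conj (⟨x, hx⟩ : ↥(S : Subgroup G)) :=
      MulEquiv.ext fun s => Subtype.ext rfl
    show j (fA (res S (innStab S x))) = 1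
    rw [h1, H95.frattiniAct_conj S.2, map_one]
  have hqodd : Odd (Nat.card q.range) := by
    rw [← index_ker]
    have h1 : q.ker.index ∣ ((S : Subgroup G).subgroupOf (normalizer ((S : Subgroup G) : Set G))).index :=
      index_dvd_of_le fun x hx => MonoidHom.mem_ker.2 (hqS x hx)
    have h2 := h1.trans (relIndex_dvd_index_of_le (le_normalizer (H := (S : Subgroup G))))
    exact (Nat.odd_iff.2 (Nat.two_dvd_ne_zero.1 S.not_dvd_index)).of_dvd_nat h2
  have hqne : q ⟨g, hg⟩ ≠ 1 := by
    intro h1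
    have h2 : res S (innStab S ⟨g, hg⟩) ∈ fA.ker := by
      rw [← hker]; exact h1
    obtain ⟨m, hm⟩ := H95.frattiniAct_ker (P := ↥(S : Subgroup G)) S.2 ⟨_, h2⟩
    have h3 : orderOf (res S (innStab S ⟨g, hg⟩)) ∣ 2 ^ m :=
      orderOf_dvd_of_pow_eq_one (congrArg Subtype.val hm)
    have h4 : orderOf (res S (innStab S ⟨g, hg⟩)) ∣ orderOf g := by
      refine ((orderOf_map_dvd _ _).trans (orderOf_map_dvd _ _)).trans ?_
      rw [← orderOf_coe]
    have h5 : res S (innStab S ⟨g, hg⟩) = 1 := orderOf_eq_one_iff.1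
      (Nat.eq_one_of_dvd_coprimes ((Nat.coprime_two_left.mpr hodd).pow_left m) h3 h4)
    refine hgc (mem_centralizer_iff.2 fun s hs => ?_)
    have h6 : g * s * g⁻¹ = s := congrArg Subtype.val (DFunLike.congr_fun h5 (⟨s, hs⟩ : ↥(S : Subgroup G)))
    exact (mul_inv_eq_iff_eq_mul.1 h6).symm
  have hle : q.range ≤ F.range := by
    rintro _ ⟨x, rfl⟩; exact ⟨_, rfl⟩
  have hnorm : F.range ≤ normalizer (q.range : Set (GL (Fin 3) (ZMod 2))) := by
    have key : ∀ φ : stab S, ∀ y ∈ q.range, F φ * y * (F φ)⁻¹ ∈ q.range := by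
      rintro φ _ ⟨x, rfl⟩
      refine ⟨⟨(φ : MulAut G) x, mem_normalizer_iff.2 fun s => ?_⟩, ?_⟩
      · rw [show (φ : MulAut G) x * s * ((φ : MulAut G) x)⁻¹ =
          (φ : MulAut G) ((x : G) * (φ : MulAut G)⁻¹ s * (x : G)⁻¹) by simp, φ.2,
          ← mem_normalizer_iff.1 x.2, (inv_mem φ.2) s]
      · refine Eq.trans (congrArg F ?_)
          (show F (φ * innStab S x * φ⁻¹) = F φ * q x * (F φ)⁻¹ by simp only [map_mul, map_inv]; rfl)
        refine Subtype.ext (MulEquiv.ext fun s => ?_)
        show (φ : MulAut G) x * s * ((φ : MulAut G) x)⁻¹ =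
          (φ : MulAut G) ((x : G) * (φ : MulAut G)⁻¹ s * (x : G)⁻¹)
        simp
    rintro _ ⟨φ, rfl⟩
    rw [mem_normalizer_iff]
    intro y
    refine ⟨key φ y, fun h => ?_⟩
    have := key φ⁻¹ _ h
    simpa [mul_assoc] using this
  have hne : F.range ≠ ⊤ := by
    intro htop
    have : q.range.Normal := normalizer_eq_top_iff.1 (top_le_iff.1 (htop ▸ hnorm))
    rcases this.eq_bot_or_eq_top with h | h
    · exact hqne (mem_bot.1 (h ▸ ⟨_, rfl⟩))
    · rw [h, card_top, h168] at hqodd
      exact absurd hqodd (by decide)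
  refine H6.isSolvable_of_card_lt_sixty ?_
  have hmul := card_mul_index F.range
  rw [h168] at hmul
  have h1 : F.range.index ≠ 1 := fun h => hne (index_eq_one.1 h)
  have h2 : F.range.index ≠ 2 := fun h => by
    rcases (normal_of_index_eq_two h).eq_bot_or_eq_top with hb | hb
    · exact hqne (mem_bot.1 (hb ▸ hle ⟨_, rfl⟩))
    · exact hne hb
  have h0 : F.range.index ≠ 0 := index_ne_zero_of_finite
  nlinarith [show 3 ≤ F.range.index by omega]

/-- Commuting, fused involutions. -/
theorem case_involutions [IsSimpleGroup G] (hS1 : (S : Subgroup G) ≠ ⊥)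
    (hcomm : ∀ s ∈ S, ∀ t ∈ S, orderOf s = 2 → orderOf t = 2 → s * t = t * s)
    (hconj : ∀ s ∈ S, ∀ t ∈ S, orderOf s = 2 → orderOf t = 2 → ∃ g : G, g * s * g⁻¹ = t) :
    Group.IsSolvable (Cfsg.Out G) := by
  classical
  haveI : Fact (Nat.Prime 2) := ⟨Nat.prime_two⟩
  have hord : ∀ x : G, x ^ 2 = 1 → x ≠ 1 → orderOf x = 2 := fun x h1 h2 => orderOf_eq_prime h1 h2
  have hcomm' : ∀ s t : G, s ∈ (S : Subgroup G) → s ^ 2 = 1 → t ∈ (S : Subgroup G) → t ^ 2 = 1 →
      Commute s t := by
    intro s t hs hs2 ht ht2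
    by_cases h1 : s = 1
    · rw [h1]; exact Commute.one_left t
    by_cases h2 : t = 1
    · rw [h2]; exact Commute.one_right s
    exact hcomm s hs t ht (hord s hs2 h1) (hord t ht2 h2)
  let E : Subgroup G :=
    { carrier := {x | x ∈ (S : Subgroup G) ∧ x ^ 2 = 1}
      one_mem' := ⟨one_mem _, one_pow 2⟩
      mul_mem' := fun {a b} ha hb => ⟨mul_mem ha.1 hb.1, by
        rw [(hcomm' a b ha.1 ha.2 hb.1 hb.2).mul_pow, ha.2, hb.2, one_mul]⟩
      inv_mem' := fun {a} ha => ⟨inv_mem ha.1, by rw [inv_pow, ha.2, inv_one]⟩ }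
  letI : CommGroup E := { (inferInstance : Group E) with
    mul_comm := fun a b => Subtype.ext (hcomm' a b a.2.1 a.2.2 b.2.1 b.2.2) }
  have hE2 : ∀ x : E, x ^ 2 = 1 := fun x => Subtype.ext x.2.2
  let f : MulAut ↥(S : Subgroup G) →* MulAut E :=
    { toFun := fun α =>
        { toFun := fun x => ⟨(α ⟨x, x.2.1⟩ : ↥(S : Subgroup G)),
            (α ⟨x, x.2.1⟩).2, by
              rw [← Subgroup.coe_pow, ← map_pow,
                show (⟨(x : G), x.2.1⟩ : ↥(S : Subgroup G)) ^ 2 = 1 from Subtype.ext x.2.2, map_one]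
              rfl⟩
          invFun := fun x => ⟨(α.symm ⟨x, x.2.1⟩ : ↥(S : Subgroup G)),
            (α.symm ⟨x, x.2.1⟩).2, by
              rw [← Subgroup.coe_pow, ← map_pow,
                show (⟨(x : G), x.2.1⟩ : ↥(S : Subgroup G)) ^ 2 = 1 from Subtype.ext x.2.2, map_one]
              rfl⟩
          left_inv := fun x => Subtype.ext (by simp)
          right_inv := fun x => Subtype.ext (by simp)
          map_mul' := fun x y => Subtype.ext (by
            show ((α (⟨x, x.2.1⟩ * ⟨y, y.2.1⟩) : ↥(S : Subgroup G)) : G) = _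
            rw [map_mul]; rfl) }
      map_one' := MulEquiv.ext fun x => Subtype.ext rfl
      map_mul' := fun α β => MulEquiv.ext fun x => Subtype.ext rfl }
  have hker : Group.IsSolvable f.ker := isSolvable_of_fix_involutions S.2 f.ker
    fun α hα x hx => by
      have hxE : (x : G) ∈ E := ⟨x.2, by rw [← Subgroup.coe_pow, hx]; rfl⟩
      refine Subtype.ext ?_
      exact (congrArg (fun e : E => (e : G)) (DFunLike.congr_fun (MonoidHom.mem_ker.1 hα) (⟨(x : G), hxE⟩ : E)))
  refine out_solvable_of_image S hS1 f hker ?_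
  set Z := (f.comp (res S)).range
  let cE : normalizer (E : Set G) →* MulAut E := E.normalizerMonoidHom
  have hcE : ∀ (g : normalizer (E : Set G)) (e : E), ((cE g e : E) : G) = g * e * (g : G)⁻¹ :=
    fun _ _ => rfl
  have hφE : ∀ φ : stab S, ∀ x : G, (φ : MulAut G) x ∈ E ↔ x ∈ E := by
    intro φ x
    show _ ∧ _ ↔ _ ∧ _
    rw [φ.2 x, ← map_pow, map_eq_one_iff _ (φ : MulAut G).injective]
  have hφN : ∀ φ : stab S, ∀ g : G, g ∈ normalizer (E : Set G) →
      (φ : MulAut G) g ∈ normalizer (E : Set G) := by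
    intro φ g hg
    refine mem_normalizer_iff.2 fun s => ?_
    rw [show (φ : MulAut G) g * s * ((φ : MulAut G) g)⁻¹ =
      (φ : MulAut G) (g * (φ : MulAut G)⁻¹ s * g⁻¹) by simp]
    exact ((hφE φ⁻¹ s).symm.trans (mem_normalizer_iff.1 hg _)).trans (hφE φ _).symm
  have hconjZ : ∀ (φ : stab S) (g : normalizer (E : Set G)),
      f (res S φ) * cE g * (f (res S φ))⁻¹ = cE ⟨(φ : MulAut G) g, hφN φ g g.2⟩ := by
    intro φ g
    rw [← map_inv f, ← map_inv (res S)]
    refine MulEquiv.ext fun e => Subtype.ext ?_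
    rw [hcE]
    show (φ : MulAut G) ((g : G) * ((φ : MulAut G)⁻¹ (e : G)) * (g : G)⁻¹) = _
    simp
  have hSN : (S : Subgroup G) ≤ normalizer (E : Set G) := fun s hs => mem_normalizer_iff.2 fun x => by
    show _ ∧ _ ↔ _ ∧ _
    rw [conj_pow, conj_eq_one_iff, mul_mem_cancel_right (inv_mem hs), mul_mem_cancel_left hs]
  let S' : Subgroup (normalizer (E : Set G)) := (S : Subgroup G).subgroupOf _
  let P : Subgroup (MulAut E) := S'.map cE
  have hnormY : Z ≤ normalizer (cE.range : Set (MulAut E)) := by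
    have key : ∀ φ : stab S, ∀ y ∈ cE.range, f (res S φ) * y * (f (res S φ))⁻¹ ∈ cE.range := by
      rintro φ _ ⟨x, rfl⟩
      exact ⟨_, (hconjZ φ x).symm⟩
    rintro _ ⟨φ, rfl⟩
    rw [mem_normalizer_iff]
    intro y
    refine ⟨key φ y, fun h => ?_⟩
    have := key φ⁻¹ _ h
    simpa [mul_assoc] using this
  have hnormP : Z ≤ normalizer (P : Set (MulAut E)) := by
    have key : ∀ φ : stab S, ∀ y ∈ P, f (res S φ) * y * (f (res S φ))⁻¹ ∈ P := by
      rintro φ _ ⟨x, hx, rfl⟩
      exact ⟨⟨(φ : MulAut G) x, hφN φ x x.2⟩, (φ.2 x).2 hx, (hconjZ φ x).symm⟩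
    rintro _ ⟨φ, rfl⟩
    rw [mem_normalizer_iff]
    intro y
    refine ⟨key φ y, fun h => ?_⟩
    have := key φ⁻¹ _ h
    simpa [mul_assoc] using this
  refine isSolvable_of_normalize_transitive hE2 cE.range Z hnormY ?_ ?_
  · -- transitivity by weak closure
    intro e z he hz
    obtain ⟨g, hg⟩ := hconj e e.2.1 z z.2.1 (hord _ e.2.2 fun h => he (Subtype.ext h))
      (hord _ z.2.2 fun h => hz (Subtype.ext h))
    have hconjmem : ∀ (g : G) (x : G), x ∈ E.map (MulAut.conj g).toMonoidHom ↔ g⁻¹ * x * g ∈ E := by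
      intro g x
      rw [mem_map_equiv]
      simp
    have hEg : E.map (MulAut.conj g).toMonoidHom ≤ centralizer {(z : G)} := by
      rintro _ ⟨x, hx, rfl⟩
      rw [mem_centralizer_singleton_iff]
      show g * x * g⁻¹ * z = z * (g * x * g⁻¹)
      rw [← hg]
      have := (hcomm' x e hx.1 hx.2 e.2.1 e.2.2).eq
      calc g * x * g⁻¹ * (g * e * g⁻¹) = g * (x * e) * g⁻¹ := by group
        _ = g * (e * x) * g⁻¹ := by rw [this]
        _ = g * e * g⁻¹ * (g * x * g⁻¹) := by group
    have hEz : E ≤ centralizer {(z : G)} := fun x hx =>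
      mem_centralizer_singleton_iff.2 (hcomm' x z hx.1 hx.2 z.2.1 z.2.2).eq
    have hEp : IsPGroup 2 E := fun x => ⟨1, by rw [pow_one]; exact hE2 x⟩
    set C := centralizer {(z : G)} with hC
    obtain ⟨Q, hQ⟩ := (hEp.comap_of_injective C.subtype C.subtype_injective).exists_le_sylow
    obtain ⟨Q', hQ'⟩ := ((hEp.map (MulAut.conj g).toMonoidHom).comap_of_injective C.subtype
      C.subtype_injective).exists_le_sylow
    obtain ⟨c, hc⟩ := MulAction.exists_smul_eq C Q' Q
    obtain ⟨R, hR⟩ := (Q.2.map C.subtype).exists_le_sylow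
    obtain ⟨h, hh⟩ := MulAction.exists_smul_eq G S R
    have hsub : ∀ x : G, x ∈ (R : Subgroup G) → x ^ 2 = 1 → h⁻¹ * x * h ∈ E := by
      intro x hx hx2
      refine ⟨?_, ?_⟩
      · rw [← hh, Sylow.coe_subgroup_smul, mem_pointwise_smul_iff_inv_smul_mem] at hx
        simpa using hx
      · rw [show h⁻¹ * x * h = h⁻¹ * x * (h⁻¹)⁻¹ by group, conj_pow, hx2]; group
    have hER : E ≤ E.map (MulAut.conj h).toMonoidHom := fun x hx => by
      rw [hconjmem]
      exact hsub x (hR ⟨⟨x, hEz hx⟩, hQ hx, rfl⟩) hx.2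
    have heq : E = E.map (MulAut.conj h).toMonoidHom :=
      eq_of_le_of_card_ge hER (card_map_of_injective (MulAut.conj h).injective).le
    have hcg : ∀ x ∈ E, (c : G) * g * x * ((c : G) * g)⁻¹ ∈ E := by
      intro x hx
      have hxg : g * x * g⁻¹ ∈ E.map (MulAut.conj g).toMonoidHom := ⟨x, hx, rfl⟩
      have h1 : (⟨g * x * g⁻¹, hEg hxg⟩ : C) ∈ (Q' : Subgroup C) := hQ' hxg
      have h2 : c * ⟨g * x * g⁻¹, hEg hxg⟩ * c⁻¹ ∈ (Q : Subgroup C) := by
        rw [← hc, Sylow.coe_subgroup_smul]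
        exact smul_mem_pointwise_smul _ (MulAut.conj c) _ h1
      have h3 : (c : G) * g * x * ((c : G) * g)⁻¹ ∈ (R : Subgroup G) := by
        have h4 := hR ⟨_, h2, rfl⟩
        simpa [mul_assoc] using h4
      rw [heq, hconjmem]
      refine hsub _ h3 ?_
      rw [conj_pow, hx.2]; group
    have hn : (c : G) * g ∈ normalizer (E : Set G) := by
      refine mem_normalizer_iff.2 fun x => ⟨hcg x, fun hx => ?_⟩
      have heq2 : E.map (MulAut.conj ((c : G) * g)).toMonoidHom = E := by
        refine eq_of_le_of_card_ge ?_ (card_map_of_injective (MulAut.conj _).injective).ge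
        rintro _ ⟨y, hy, rfl⟩
        exact hcg y hy
      rw [← heq2, hconjmem] at hx
      simpa [mul_assoc] using hx
    refine ⟨cE ⟨_, hn⟩, ⟨_, rfl⟩, Subtype.ext ?_⟩
    rw [hcE]
    show (c : G) * g * e * ((c : G) * g)⁻¹ = z
    calc (c : G) * g * e * ((c : G) * g)⁻¹ = c * (g * e * g⁻¹) * (c : G)⁻¹ := by group
      _ = c * z * (c : G)⁻¹ := by rw [hg]
      _ = z := mul_inv_eq_iff_eq_mul.2 (mem_centralizer_singleton_iff.1 c.2)
  · -- the intersection normalises a Sylow 2-subgroup
    let L := cE.range ⊓ normalizer (P : Set (MulAut E))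
    have hPY : P ≤ cE.range := map_le_range cE S'
    have hPL : P ≤ L := le_inf hPY le_normalizer
    have hidx : Odd (P.relIndex L) := by
      have h1 : P.relIndex cE.range ∣ S'.index := by
        rw [MonoidHom.range_eq_map, relIndex_map_map, top_sup_eq, relIndex_top_right]
        exact index_dvd_of_le le_sup_left
      have h2 : Odd S'.index := by
        refine (Nat.odd_iff.2 (Nat.two_dvd_ne_zero.1 S.not_dvd_index)).of_dvd_nat ?_
        exact relIndex_dvd_index_of_le hSN
      refine (h2.of_dvd_nat h1).of_dvd_nat ?_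
      exact Dvd.intro _ (relIndex_mul_relIndex P L cE.range hPL inf_le_left)
    have hPn : (P.subgroupOf L).Normal :=
      normal_subgroupOf_of_le_normalizer inf_le_right
    have hP2 : IsPGroup 2 (P.subgroupOf L) :=
      ((S.2.comap_of_injective _ (normalizer (E : Set G)).subtype_injective).map cE).comap_of_injective
        L.subtype L.subtype_injective
    haveI := hP2.isNilpotent
    haveI : Group.IsSolvable (L ⧸ P.subgroupOf L) :=
      Cfsg.Agent.S0205.result (by rw [← index_eq_card]; exact hidx)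
    haveI : Group.IsSolvable L := Group.isSolvable_of_ker_le_range (P.subgroupOf L).subtype
      (QuotientGroup.mk' (P.subgroupOf L)) (by rw [QuotientGroup.ker_mk', range_subtype])
    exact Group.isSolvable_of_isSolvable_injective
      (f := inclusion (le_inf inf_le_right (inf_le_left.trans hnormP) : Z ⊓ cE.range ≤ L))
      (inclusion_injective _)

end Cfsg.Agent.H79.OutSolvable
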